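import Cfsg.Agent.R2.T1.P3.Q2
import Cfsg.Agent.R2.T1.Inf.Cnt
import Cfsg.Agent.R2.T1.Inf.Ext

/-!
# S5771, box P3, step Q3 (helper3)

* `Sev ψ a b c` : `a i`, `b i` are the translates of a basis of the two-dimensional fixed space of `A_7`, with their
  Gram matrices;
* `PQ f a b` : over the extension `K` there are two independent combinations for which the sum of four is pure;
* `exists_alpha` : an element of order `p` of `A_8` which commutes with the stabiliser of `ξ`.
-/

set_option autoImplicit false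

namespace Cfsg.Agent.R2.T1.P3

open Cfsg Cfsg.Lie Module Matrix
open Cfsg.Agent.R2.T1 Cfsg.Agent.R2.T1.Mu Cfsg.Agent.R2.PX
open Cfsg.Agent.H943.E7V.Block (D1 rho)
open Cfsg.Agent.H952.F4 (MaxAlt)
open Equiv

universe u

/-- descent of membership in a subspace -/
theorem span_desc {F K : Type u} [Field F] [Field K] (f : F →+* K) (W : Submodule F (D1 → F)) (w : D1 → F)
    (h : (fun i => f (w i)) ∈ Submodule.span K {x : D1 → K | ∃ y ∈ W, x = fun i => f (y i)}) : w ∈ W := by
  by_contra hw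
  obtain ⟨φ, h1, h2⟩ := Submodule.exists_dual_map_eq_bot_of_notMem hw inferInstance
  let φK : (D1 → K) →ₗ[K] K :=
    { toFun := fun x => ∑ i, f (φ (Pi.single i 1)) * x i
      map_add' := fun x y => by simp [mul_add, Finset.sum_add_distrib]
      map_smul' := fun c x => by
        simp only [Pi.smul_apply, smul_eq_mul, RingHom.id_apply, Finset.mul_sum]
        exact Finset.sum_congr rfl fun i _ => by ring }
  have hφ : ∀ y : D1 → F, φK (fun i => f (y i)) = f (φ y) := by
    intro y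
    have h3 : y = ∑ i, y i • (Pi.single i 1 : D1 → F) := by
      funext j
      rw [Finset.sum_apply, Finset.sum_eq_single j]
      · simp
      · intro b _ hb
        simp [Pi.single_eq_of_ne (Ne.symm hb)]
      · intro hj
        exact absurd (Finset.mem_univ j) hj
    conv_rhs => rw [h3]
    rw [map_sum, map_sum]
    show ∑ i, f (φ (Pi.single i 1)) * f (y i) = _
    refine Finset.sum_congr rfl fun i _ => ?_
    rw [map_smul, smul_eq_mul, map_mul]
    ring
  have h3 : Submodule.span K {x : D1 → K | ∃ y ∈ W, x = fun i => f (y i)} ≤ LinearMap.ker φK := by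
    refine Submodule.span_le.2 ?_
    rintro _ ⟨y, hy, rfl⟩
    show φK _ = 0
    rw [hφ]
    have h4 : φ y ∈ W.map φ := ⟨y, hy, rfl⟩
    rw [h2, Submodule.mem_bot] at h4
    rw [h4, map_zero]
  have h4 : φK (fun i => f (w i)) = 0 := h3 h
  rw [hφ] at h4
  exact h1 ((map_eq_zero f).1 h4)

/-- the seven-dimensional modules -/
structure Sev {F : Type u} [Field F] (ψ : ↥(alternatingGroup (Fin 8)) →* Gh F) (a b : Fin 8 → D1 → F) (c : F) : Prop where
  actA : ∀ (g : ↥(alternatingGroup (Fin 8))) (i : Fin 8), V F (ψ g) (a i) = a ((g : Perm (Fin 8)) i)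
  actB : ∀ (g : ↥(alternatingGroup (Fin 8))) (i : Fin 8), V F (ψ g) (b i) = b ((g : Perm (Fin 8)) i)
  sumA : ∑ i, a i = 0
  sumB : ∑ i, b i = 0
  isoA : ∀ i j, sf F (a i) (a j) = 0
  isoB : ∀ i j, sf F (b i) (b j) = 0
  ab : ∀ i j, sf F (a i) (b j) = if i = j then 7 * c else -c
  ne : c ≠ 0

/-- pure combinations over the extension -/
def PQ {F K : Type u} [Field F] [Field K] (f : F →+* K) (a b : Fin 8 → D1 → F) : Prop :=
  ∃ s1 t1 s2 t2 : K, s1 * t2 - t1 * s2 ≠ 0 ∧
    PX.Pure K (s1 • (fun x => f ((a 0 + a 1 + a 2 + a 3) x)) + t1 • (fun x => f ((b 0 + b 1 + b 2 + b 3) x))) ∧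
    PX.Pure K (s2 • (fun x => f ((a 0 + a 1 + a 2 + a 3) x)) + t2 • (fun x => f ((b 0 + b 1 + b 2 + b 3) x)))

section
variable {F K : Type u} [Field F] [Field K] (f : F →+* K) {ψ : ↥(alternatingGroup (Fin 8)) →* Gh F}
  {a b : Fin 8 → D1 → F} {c : F}

/-- the combination over the extension -/
def cb (a b : Fin 8 → D1 → F) (s t : K) (i : Fin 8) : D1 → K := s • (fun x => f (a i x)) + t • (fun x => f (b i x))

theorem swap_AB (hs : Sev ψ a b c) (i j : Fin 8) : sf F (b i) (a j) = - sf F (a i) (b j) := by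
  rw [sf_swap, hs.ab, hs.ab]
  by_cases h : i = j
  · rw [if_pos h, if_pos h.symm]
  · rw [if_neg h, if_neg (Ne.symm h)]

theorem sf_cb (hs : Sev ψ a b c) (s t s' t' : K) (i j : Fin 8) :
    sf K (cb f a b s t i) (cb f a b s' t' j) = (s * t' - t * s') * f (if i = j then 7 * c else -c) := by
  unfold cb
  simp only [map_add, map_smul, LinearMap.add_apply, LinearMap.smul_apply, smul_eq_mul, sf_emb, hs.isoA, hs.isoB,
    swap_AB hs, hs.ab, map_zero, mul_zero, zero_add, add_zero, map_neg]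
  ring

theorem sum_cb (hs : Sev ψ a b c) (s t : K) : ∑ i, cb f a b s t i = 0 := by
  unfold cb
  rw [Finset.sum_add_distrib, ← Finset.smul_sum, ← Finset.smul_sum]
  have h1 : ∑ i, (fun x => f (a i x) : D1 → K) = 0 := by
    funext x
    rw [Finset.sum_apply, ← map_sum, ← Finset.sum_apply, hs.sumA]
    simp
  have h2 : ∑ i, (fun x => f (b i x) : D1 → K) = 0 := by
    funext x
    rw [Finset.sum_apply, ← map_sum, ← Finset.sum_apply, hs.sumB]
    simp
  rw [h1, h2, smul_zero, smul_zero, add_zero]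

theorem act_cb (hs : Sev ψ a b c) (s t : K) (g : ↥(alternatingGroup (Fin 8))) (i : Fin 8) :
    V K (emb f (ψ g)) (cb f a b s t i) = cb f a b s t ((g : Perm (Fin 8)) i) := by
  unfold cb
  rw [map_add, map_smul, map_smul, V_emb, V_emb, hs.actA, hs.actB]

theorem tp_cb (hs : Sev ψ a b c) {s t : K}
    (hP : PX.Pure K (s • (fun x => f ((a 0 + a 1 + a 2 + a 3) x)) + t • (fun x => f ((b 0 + b 1 + b 2 + b 3) x)))) :
    TP K (cb f a b s t) where
  act π hπ := ⟨emb f (ψ ⟨π, Perm.mem_alternatingGroup.2 hπ⟩), fun i => act_cb f hs s t _ i⟩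
  sum := sum_cb f hs s t
  iso i j := by rw [sf_cb f hs, mul_comm t s, sub_self, zero_mul]
  pure := by
    have h : cb f a b s t 0 + cb f a b s t 1 + cb f a b s t 2 + cb f a b s t 3 =
        s • (fun x => f ((a 0 + a 1 + a 2 + a 3) x)) + t • (fun x => f ((b 0 + b 1 + b 2 + b 3) x)) := by
      unfold cb
      funext x
      simp only [Pi.add_apply, Pi.smul_apply, smul_eq_mul, map_add]
      ring
    rw [h]; exact hP

/-- the combination with coefficients `ξ` -/
def cx (a b : Fin 8 → D1 → F) (ξ : Fin 8 → F) (s t : K) : D1 → K := ∑ i, f (ξ i) • cb f a b s t i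

theorem sf_cx (hs : Sev ψ a b c) (ξ : Fin 8 → F) (s t s' t' : K) (k : Fin 8) :
    sf K (cb f a b s t k) (cx f a b ξ s' t') = (s * t' - t * s') * f (c * (8 * ξ k - ∑ i, ξ i)) := by
  unfold cx
  rw [map_sum]
  simp only [map_smul, smul_eq_mul, sf_cb f hs]
  have h : ∀ i, f (ξ i) * ((s * t' - t * s') * f (if k = i then 7 * c else -c)) =
      (s * t' - t * s') * f (ξ i * (if k = i then 7 * c else -c)) := fun i => by rw [map_mul]; ring
  rw [Finset.sum_congr rfl fun i _ => h i, ← Finset.mul_sum, ← map_sum]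
  congr 2
  have h2 : ∀ i, ξ i * (if k = i then 7 * c else -c) = (if k = i then 8 * c * ξ i else 0) - c * ξ i := fun i => by
    split_ifs <;> ring
  rw [Finset.sum_congr rfl fun i _ => h2 i, Finset.sum_sub_distrib, Finset.sum_ite_eq, if_pos (Finset.mem_univ k),
    ← Finset.mul_sum]
  ring

theorem cx_lin (ξ : Fin 8 → F) (s t s' t' α β : K) :
    cx f a b ξ (α * s + β * s') (α * t + β * t') = α • cx f a b ξ s t + β • cx f a b ξ s' t' := by
  unfold cx cb
  rw [Finset.smul_sum, Finset.smul_sum, ← Finset.sum_add_distrib]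
  refine Finset.sum_congr rfl fun i _ => ?_
  module

theorem cx_emb (ξ : Fin 8 → F) (x y : F) :
    cx f a b ξ (f x) (f y) = fun i => f ((∑ k, ξ k • (x • a k + y • b k)) i) := by
  funext i
  unfold cx cb
  rw [Finset.sum_apply, Finset.sum_apply, map_sum]
  refine Finset.sum_congr rfl fun k _ => ?_
  simp only [Pi.smul_apply, Pi.add_apply, smul_eq_mul, map_mul, map_add]

theorem DD_cx (h2 : (2 : K) ≠ 0) {s t : K} (h : TP K (cb f a b s t)) (ξ : Fin 8 → F) :
    DD K (cx f a b ξ s t) (cx f a b ξ s t) = 0 ∧ ∀ k, DD K (cx f a b ξ s t) (cb f a b s t k) = 0 := by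
  have h1 : ∀ k, DD K (cx f a b ξ s t) (cb f a b s t k) = 0 := by
    intro k
    unfold cx
    rw [DD_sum_left]
    refine Finset.sum_eq_zero fun i _ => ?_
    rw [DD_smul_left, h.zero h2, smul_zero]
  refine ⟨?_, h1⟩
  conv_lhs => rw [show cx f a b ξ s t = ∑ i, f (ξ i) • cb f a b s t i from rfl]
  rw [DD_sum_left]
  refine Finset.sum_eq_zero fun i _ => ?_
  rw [DD_smul_left, DD_comm, ← show cx f a b ξ s t = ∑ i, f (ξ i) • cb f a b s t i from rfl, h1, smul_zero]

theorem cb_lin (s t s' t' α β : K) (k : Fin 8) :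
    cb f a b (α * s + β * s') (α * t + β * t') k = α • cb f a b s t k + β • cb f a b s' t' k := by
  unfold cb
  module

theorem sf_cx_cx (hs : Sev ψ a b c) {ξ : Fin 8 → F} (h0 : 8 * ∑ i, ξ i ^ 2 = (∑ i, ξ i) ^ 2) (s t s' t' : K) :
    sf K (cx f a b ξ s t) (cx f a b ξ s' t') = 0 := by
  have h : sf K (cx f a b ξ s t) (cx f a b ξ s' t') =
      ∑ k, f (ξ k) * sf K (cb f a b s t k) (cx f a b ξ s' t') := by
    conv_lhs => rw [show cx f a b ξ s t = ∑ i, f (ξ i) • cb f a b s t i from rfl]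
    rw [map_sum, LinearMap.sum_apply]
    simp only [map_smul, LinearMap.smul_apply, smul_eq_mul]
  rw [h]
  simp only [sf_cx f hs]
  have h1 : ∀ k, f (ξ k) * ((s * t' - t * s') * f (c * (8 * ξ k - ∑ i, ξ i))) =
      (s * t' - t * s') * f (c * (8 * ξ k ^ 2 - (∑ i, ξ i) * ξ k)) := fun k => by
    rw [mul_left_comm, ← map_mul]
    congr 2
    ring
  rw [Finset.sum_congr rfl fun k _ => h1 k, ← Finset.mul_sum, ← map_sum, ← Finset.mul_sum, Finset.sum_sub_distrib,
    ← Finset.mul_sum, ← Finset.mul_sum, h0, pow_two, sub_self, mul_zero, map_zero, mul_zero]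

/-- the action of `D(v u₁, v u₂)` -/
theorem M_cb (hs : Sev ψ a b c) (h2 : (2 : K) ≠ 0) {ξ : Fin 8 → F} (h0 : 8 * ∑ i, ξ i ^ 2 = (∑ i, ξ i) ^ 2)
    {s t s' t' : K} (h : TP K (cb f a b s t)) (k : Fin 8) :
    DD K (cx f a b ξ s t) (cx f a b ξ s' t') *ᵥ cb f a b s t k =
      (2 * sf K (cx f a b ξ s' t') (cb f a b s t k)) • cx f a b ξ s t := by
  have h1 := ident (F := K) (cx f a b ξ s t) (cx f a b ξ s' t') (cb f a b s t k)
  have h3 : sf K (cx f a b ξ s t) (cb f a b s t k) = 0 := by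
    rw [sf_swap, sf_cx f hs, mul_comm t s, sub_self, zero_mul, neg_zero]
  rw [(DD_cx f h2 h ξ).2 k, Matrix.zero_mulVec, sub_zero, h3, zero_smul, add_zero, sf_cx_cx f hs h0, zero_smul,
    sub_zero] at h1
  exact h1

/-- the key element over `F` -/
theorem exists_m (h2 : (2 : F) ≠ 0) (hs : Sev ψ a b c) (hP : PQ f a b) {ξ : Fin 8 → F}
    (h0 : 8 * ∑ i, ξ i ^ 2 = (∑ i, ξ i) ^ 2) (hξ : ∃ k, 8 * ξ k - ∑ i, ξ i ≠ 0) :
    ∃ x y : F, IsRt ((DD F (∑ k, ξ k • (x • a k + y • b k)) (∑ k, ξ k • (x • a k + y • b k))).map f) ∧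
      ∀ w ∈ Submodule.span F (Set.range a ∪ Set.range b),
        DD F (∑ k, ξ k • (x • a k + y • b k)) (∑ k, ξ k • (x • a k + y • b k)) *ᵥ w ∈
          Submodule.span F (Set.range a ∪ Set.range b) := by
  have h2K : (2 : K) ≠ 0 := by
    intro h
    apply h2
    apply (map_eq_zero f).1
    rw [map_ofNat]; exact h
  obtain ⟨s1, t1, s2, t2, hΔ, hp1, hp2⟩ := hP
  have T1 := tp_cb f hs hp1
  have T2 := tp_cb f hs hp2
  have hc : f c ≠ 0 := fun h => hs.ne ((map_eq_zero f).1 h)
  -- the choice of `x`, `y`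
  obtain ⟨x, y, hx, hy⟩ : ∃ x y : F, f x * t2 - f y * s2 ≠ 0 ∧ f y * s1 - f x * t1 ≠ 0 := by
    by_cases h1 : t2 ≠ 0 ∧ t1 ≠ 0
    · refine ⟨1, 0, ?_, ?_⟩
      · rw [map_one, map_zero, one_mul, zero_mul, sub_zero]; exact h1.1
      · rw [map_one, map_zero, one_mul, zero_mul, zero_sub]; exact neg_ne_zero.2 h1.2
    by_cases h3 : s2 ≠ 0 ∧ s1 ≠ 0
    · refine ⟨0, 1, ?_, ?_⟩
      · rw [map_one, map_zero, one_mul, zero_mul, zero_sub]; exact neg_ne_zero.2 h3.1
      · rw [map_one, map_zero, one_mul, zero_mul, sub_zero]; exact h3.2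
    refine ⟨1, 1, ?_, ?_⟩
    · rw [map_one, one_mul, one_mul]
      intro h4
      have h5 : t2 = s2 := sub_eq_zero.1 h4
      apply hΔ
      by_cases h6 : t2 = 0
      · rw [← h5, h6]; ring
      · have h7 : t1 = 0 := by
          by_contra h8; exact h1 ⟨h6, h8⟩
        have h8 : s1 = 0 := by
          by_contra h9; exact h3 ⟨by rw [← h5]; exact h6, h9⟩
        rw [h7, h8]; ring
    · rw [map_one, one_mul, one_mul]
      intro h4
      have h5 : s1 = t1 := sub_eq_zero.1 h4
      apply hΔ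
      by_cases h6 : t1 = 0
      · rw [h5, h6]; ring
      · have h7 : t2 = 0 := by
          by_contra h8; exact h1 ⟨h8, h6⟩
        have h8 : s2 = 0 := by
          by_contra h9; exact h3 ⟨h9, by rw [h5]; exact h6⟩
        rw [h7, h8]; ring
  refine ⟨x, y, ?_⟩
  set u : D1 → F := ∑ k, ξ k • (x • a k + y • b k) with hu
  set Δ : K := s1 * t2 - t1 * s2 with hΔdef
  set ve := cx f a b ξ s1 t1 with hve
  set vh := cx f a b ξ s2 t2 with hvh
  have key : Δ⁻¹ * Δ = 1 := inv_mul_cancel₀ hΔ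
  have hfu : (fun i => f (u i)) = (Δ⁻¹ * (f x * t2 - f y * s2)) • ve + (Δ⁻¹ * (f y * s1 - f x * t1)) • vh := by
    rw [hu, ← cx_emb, hve, hvh, ← cx_lin]
    congr 1
    · linear_combination (-(f x)) * key + Δ⁻¹ * f x * hΔdef
    · linear_combination (-(f y)) * key + Δ⁻¹ * f y * hΔdef
  have hmap : (DD F u u).map f = (2 * ((Δ⁻¹ * (f x * t2 - f y * s2)) * (Δ⁻¹ * (f y * s1 - f x * t1)))) • DD K ve vh := by
    rw [← DD_emb, hfu, DD_add_left, DD_add_right, DD_add_right, DD_smul_left, DD_smul_left, DD_smul_left, DD_smul_left,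
      DD_smul_right, DD_smul_right, DD_smul_right, DD_smul_right, (DD_cx f h2K T1 ξ).1, (DD_cx f h2K T2 ξ).1,
      DD_comm vh ve]
    module
  have hk : (2 * ((Δ⁻¹ * (f x * t2 - f y * s2)) * (Δ⁻¹ * (f y * s1 - f x * t1)))) ≠ 0 :=
    mul_ne_zero h2K (mul_ne_zero (mul_ne_zero (inv_ne_zero hΔ) hx) (mul_ne_zero (inv_ne_zero hΔ) hy))
  obtain ⟨k, hk8⟩ := hξ
  have hk8' : f (c * (8 * ξ k - ∑ i, ξ i)) ≠ 0 := fun h => (mul_ne_zero hs.ne hk8) ((map_eq_zero f).1 h)
  have hve0 : ve ≠ 0 := by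
    intro h
    have h3 := sf_cx f hs ξ s2 t2 s1 t1 k
    rw [← hve, h, map_zero] at h3
    have h4 : s2 * t1 - t2 * s1 = -Δ := by rw [hΔdef]; ring
    rw [h4] at h3
    exact (mul_ne_zero (neg_ne_zero.2 hΔ) hk8') h3.symm
  have hD : DD K ve vh ≠ 0 := by
    intro h
    have h3 := M_cb f hs h2K h0 (s' := s2) (t' := t2) T1 k
    rw [← hve, ← hvh, h, Matrix.zero_mulVec, sf_swap, hvh, sf_cx f hs] at h3
    refine smul_ne_zero ?_ hve0 h3.symm
    exact mul_ne_zero h2K (neg_ne_zero.2 (mul_ne_zero hΔ hk8'))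
  have hRt : IsRt (DD K ve vh) := (IsRt.of_pair h2K (DD_cx f h2K T1 ξ).1 (DD_cx f h2K T2 ξ).1
    (sf_cx_cx f hs h0 _ _ _ _) hD).1
  refine ⟨by rw [hmap]; exact hRt.smul hk, ?_⟩
  -- the span
  set W := Submodule.span F (Set.range a ∪ Set.range b) with hW
  set WK := Submodule.span K {x : D1 → K | ∃ y ∈ W, x = fun i => f (y i)} with hWK
  have ha : ∀ i, a i ∈ W := fun i => Submodule.subset_span (Or.inl ⟨i, rfl⟩)
  have hb : ∀ i, b i ∈ W := fun i => Submodule.subset_span (Or.inr ⟨i, rfl⟩)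
  have hcb : ∀ s t i, cb f a b s t i ∈ WK := fun s t i =>
    Submodule.add_mem _ (Submodule.smul_mem _ _ (Submodule.subset_span ⟨_, ha i, rfl⟩))
      (Submodule.smul_mem _ _ (Submodule.subset_span ⟨_, hb i, rfl⟩))
  have hcx : ∀ s t, cx f a b ξ s t ∈ WK := fun s t =>
    Submodule.sum_mem _ fun i _ => Submodule.smul_mem _ _ (hcb s t i)
  have hM : ∀ s t i, DD K ve vh *ᵥ cb f a b s t i ∈ WK := by
    intro s t i
    have h3 : cb f a b s t i = (Δ⁻¹ * (s * t2 - t * s2)) • cb f a b s1 t1 i + (Δ⁻¹ * (t * s1 - s * t1)) • cb f a b s2 t2 i := by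
      rw [← cb_lin]
      congr 1
      · linear_combination (-s) * key + Δ⁻¹ * s * hΔdef
      · linear_combination (-t) * key + Δ⁻¹ * t * hΔdef
    rw [h3, Matrix.mulVec_add, Matrix.mulVec_smul, Matrix.mulVec_smul]
    refine Submodule.add_mem _ (Submodule.smul_mem _ _ ?_) (Submodule.smul_mem _ _ ?_)
    · rw [hve, hvh, M_cb f hs h2K h0 T1]
      exact Submodule.smul_mem _ _ (hcx _ _)
    · rw [hve, hvh, DD_comm, M_cb f hs h2K h0 T2]
      exact Submodule.smul_mem _ _ (hcx _ _)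
  have hMF : ∀ w : D1 → F, (∃ s t i, (fun j => f (w j)) = cb f a b s t i) → DD F u u *ᵥ w ∈ W := by
    rintro w ⟨s, t, i, h3⟩
    apply span_desc f
    have h4 : (fun i => f ((DD F u u *ᵥ w) i)) = (DD F u u).map f *ᵥ fun i => f (w i) := by
      funext j
      exact RingHom.map_mulVec f (DD F u u) w j
    rw [h4, h3, hmap, Matrix.smul_mulVec]
    exact Submodule.smul_mem _ _ (hM s t i)
  intro w hw
  induction hw using Submodule.span_induction with
  | zero => rw [Matrix.mulVec_zero]; exact Submodule.zero_mem _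
  | add a b _ _ ha hb => rw [Matrix.mulVec_add]; exact Submodule.add_mem _ ha hb
  | smul r a _ ha => rw [Matrix.mulVec_smul]; exact Submodule.smul_mem _ _ ha
  | mem w hw =>
    rcases hw with ⟨i, rfl⟩ | ⟨i, rfl⟩
    · refine hMF _ ⟨1, 0, i, ?_⟩
      unfold cb
      rw [one_smul, zero_smul, add_zero]
    · refine hMF _ ⟨0, 1, i, ?_⟩
      unfold cb
      rw [one_smul, zero_smul, zero_add]

theorem pow_one_add {m : Matrix D1 D1 F} (hm : m * m = 0) (n : ℕ) : (1 + m) ^ n = 1 + n • m := by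
  induction n with
  | zero => simp
  | succ n ih =>
    have h1 : (n • m) * m = 0 := by rw [Matrix.smul_mul, hm, smul_zero]
    rw [pow_succ, ih, Matrix.add_mul, Matrix.mul_add, Matrix.mul_add, h1, add_zero,
      Matrix.mul_one, Matrix.one_mul, Matrix.mul_one, succ_nsmul]
    abel

/-- **Q3** : the root element over `F` -/
theorem exists_z [Finite F] [IsAlgClosed K] {p : ℕ} [CharP F p] (h2 : (2 : F) ≠ 0) {H : Subgroup ↥(chevE7.group F)}
    (hM : IsCoatom H) (hs : Sev ψ a b c) (hS : Stab (V F) H (Submodule.span F (Set.range a ∪ Set.range b)))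
    (hP : PQ f a b) {ξ : Fin 8 → F} (h0 : 8 * ∑ i, ξ i ^ 2 = (∑ i, ξ i) ^ 2) (hξ : ∃ k, 8 * ξ k - ∑ i, ξ i ≠ 0) :
    ∃ z : Gh F, ad F z ∈ H ∧ z ^ p = 1 ∧ ad F z ≠ 1 ∧
      ∀ g : ↥(alternatingGroup (Fin 8)), (∀ i, ξ ((g : Perm (Fin 8)) i) = ξ i) → ψ g * z = z * ψ g := by
  obtain ⟨x, y, hRt, hW⟩ := exists_m f h2 hs hP h0 hξ
  set u : D1 → F := ∑ k, ξ k • (x • a k + y • b k) with hu
  obtain ⟨z, hz⟩ := exp_desc f hRt 1
  rw [one_smul] at hz
  have hsq : DD F u u * DD F u u = 0 := by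
    have h1 := hRt.sq
    rw [← Matrix.map_mul] at h1
    ext i j
    have h3 := congrFun (congrFun h1 i) j
    rw [Matrix.map_apply, Matrix.zero_apply] at h3
    rw [Matrix.zero_apply]
    exact (map_eq_zero f).1 h3
  have hne : DD F u u ≠ 0 := by
    intro h
    apply hRt.ne
    rw [h]
    exact Matrix.map_zero _ (map_zero f)
  have hzp : z ^ p = 1 := by
    apply rho_injective
    rw [map_pow, hz, pow_one_add hsq, map_one, ← Nat.cast_smul_eq_nsmul F, CharP.cast_eq_zero, zero_smul, add_zero]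
  have h0W : Submodule.span F (Set.range a ∪ Set.range b) ≠ ⊥ := by
    intro h
    have h1 : a 0 ∈ Submodule.span F (Set.range a ∪ Set.range b) := Submodule.subset_span (Or.inl ⟨0, rfl⟩)
    rw [h, Submodule.mem_bot] at h1
    have h3 := hs.ab 0 1
    rw [h1, map_zero, LinearMap.zero_apply, if_neg (by decide)] at h3
    exact neg_ne_zero.2 hs.ne h3.symm
  have h1W : Submodule.span F (Set.range a ∪ Set.range b) ≠ ⊤ := by
    intro h
    have h1 : Module.finrank F ↥(Submodule.span F (Set.range a ∪ Set.range b)) ≤ 16 := by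
      have h3 : Set.range a ∪ Set.range b = Set.range (Sum.elim a b) := (Set.Sum.elim_range a b).symm
      rw [h3]
      refine (finrank_range_le_card (Sum.elim a b)).trans ?_
      simp
    rw [h, finrank_top, Module.finrank_fintype_fun_eq_card] at h1
    have h4 : Fintype.card D1 = 56 := Cfsg.Agent.H943.E7V.Block.card_D1
    omega
  have hzH : ad F z ∈ H := by
    refine blue hM hS h0W h1W (g := z) fun w hw => ?_
    rw [V_apply, hz, Matrix.add_mulVec, Matrix.one_mulVec]
    exact Submodule.add_mem _ hw (hW w hw)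
  refine ⟨z, hzH, hzp, ?_, ?_⟩
  · intro had
    rcases ad_eq_one_iff.1 had with h | h
    · have h3 : rho F z = 1 := by
        rw [faithful h, map_one]
      rw [hz] at h3
      exact hne (add_eq_left.1 h3)
    · have h3 : rho F z = -1 := by
        apply Matrix.toLin'.injective
        have h4 := h
        rw [V_eq] at h4
        rw [h4, map_neg, Matrix.toLin'_one]
        rfl
      have h5 : DD F u u = (-2 : F) • 1 := by
        rw [hz] at h3
        have h6 : DD F u u = -1 - 1 := by rw [← h3]; abel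
        rw [h6, neg_smul, two_smul]; abel
      rw [h5, Matrix.smul_mul, Matrix.one_mul, smul_smul] at hsq
      have h6 := congrFun (congrFun hsq topv) topv
      rw [Matrix.smul_apply, Matrix.one_apply_eq, Matrix.zero_apply, smul_eq_mul, mul_one] at h6
      exact (mul_ne_zero (neg_ne_zero.2 h2) (neg_ne_zero.2 h2)) h6
  · intro g hg
    apply rho_injective
    have h3 : V F (ψ g) u = u := by
      rw [hu, map_sum]
      have h4 : ∀ k, V F (ψ g) (ξ k • (x • a k + y • b k)) =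
          ξ ((g : Perm (Fin 8)) k) • (x • a ((g : Perm (Fin 8)) k) + y • b ((g : Perm (Fin 8)) k)) := fun k => by
        rw [map_smul, map_add, map_smul, map_smul, hs.actA, hs.actB, hg]
      rw [Finset.sum_congr rfl fun k _ => h4 k]
      exact Equiv.sum_comp (g : Perm (Fin 8)) fun k => ξ k • (x • a k + y • b k)
    have h4 := equi F (ψ g) u u
    rw [h3] at h4
    rw [map_mul, map_mul, hz, Matrix.mul_add, Matrix.add_mul, h4, Matrix.mul_one, Matrix.one_mul]

end

end Cfsg.Agent.R2.T1.P3
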