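import Cfsg.Agent.R2.T1.P3.Q3
import Mathlib.GroupTheory.Perm.Sign

/-!
# S5771, box P3, `p = 3`, `n = 9` (helper3), part 1

* `res9 : A_8 →* A_9` : the stabiliser of the last point;
* `Nin ψ a b c` : the two antisymmetric families `n_ij`; `Nin.sev`.
-/

set_option autoImplicit false

namespace Cfsg.Agent.R2.T1.P3

open Cfsg Cfsg.Lie Module Matrix
open Cfsg.Agent.R2.T1 Cfsg.Agent.R2.T1.Mu Cfsg.Agent.R2.PX
open Cfsg.Agent.H943.E7V.Block (D1 rho)
open Cfsg.Agent.H952.F4 (MaxAlt)
open Equiv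

universe u

/-- the first eight points -/
def e89 : Fin 8 ≃ {i : Fin 9 // (i : ℕ) < 8} where
  toFun i := ⟨i.castSucc, by rw [Fin.val_castSucc]; exact i.2⟩
  invFun i := ⟨i.1, i.2⟩
  left_inv i := rfl
  right_inv i := rfl

/-- the stabiliser of the last point -/
def res9 : ↥(alternatingGroup (Fin 8)) →* ↥(alternatingGroup (Fin 9)) :=
  ((Perm.extendDomainHom e89).comp (alternatingGroup (Fin 8)).subtype).codRestrict _ fun g => by
    rw [Perm.mem_alternatingGroup]
    show Perm.sign (Perm.extendDomain (g : Perm (Fin 8)) e89) = 1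
    rw [Perm.sign_extendDomain]
    exact Perm.mem_alternatingGroup.1 g.2

theorem res9_cast (g : ↥(alternatingGroup (Fin 8))) (i : Fin 8) :
    (res9 g : Perm (Fin 9)) i.castSucc = ((g : Perm (Fin 8)) i).castSucc :=
  Perm.extendDomain_apply_image (g : Perm (Fin 8)) e89 i

theorem res9_last (g : ↥(alternatingGroup (Fin 8))) : (res9 g : Perm (Fin 9)) 8 = 8 :=
  Perm.extendDomain_apply_not_subtype (g : Perm (Fin 8)) e89 (by decide)

/-- the coefficient of the Gram matrix -/
def gm (F : Type u) [Field F] (i j k l : Fin 9) : F :=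
  (if i = k then 1 else 0) + (if j = l then 1 else 0) - (if i = l then 1 else 0) - (if j = k then 1 else 0)

/-- the two families of vectors -/
structure Nin {F : Type u} [Field F] (ψ : ↥(alternatingGroup (Fin 9)) →* Gh F) (a b : Fin 9 → Fin 9 → D1 → F)
    (c : F) : Prop where
  actA : ∀ (g : ↥(alternatingGroup (Fin 9))) (i j : Fin 9), V F (ψ g) (a i j) =
    a ((g : Perm (Fin 9)) i) ((g : Perm (Fin 9)) j)
  actB : ∀ (g : ↥(alternatingGroup (Fin 9))) (i j : Fin 9), V F (ψ g) (b i j) =
    b ((g : Perm (Fin 9)) i) ((g : Perm (Fin 9)) j)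
  antiA : ∀ i j, a j i = - a i j
  antiB : ∀ i j, b j i = - b i j
  sumA : ∀ j, ∑ i, a i j = 0
  sumB : ∀ j, ∑ i, b i j = 0
  isoA : ∀ i j k l, sf F (a i j) (a k l) = 0
  isoB : ∀ i j k l, sf F (b i j) (b k l) = 0
  ab : ∀ i j k l, sf F (a i j) (b k l) = c * gm F i j k l
  ne : c ≠ 0

section
variable {F : Type u} [Field F] {ψ : ↥(alternatingGroup (Fin 9)) →* Gh F} {a b : Fin 9 → Fin 9 → D1 → F} {c : F}

theorem Nin.diagA (h : Nin ψ a b c) (h2 : (2 : F) ≠ 0) (i : Fin 9) : a i i = 0 := by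
  have h1 := h.antiA i i
  have h3 : (2 : F) • a i i = 0 := by
    rw [two_smul]; nth_rewrite 1 [h1]; exact neg_add_cancel _
  exact (smul_eq_zero.1 h3).resolve_left h2

theorem Nin.diagB (h : Nin ψ a b c) (h2 : (2 : F) ≠ 0) (i : Fin 9) : b i i = 0 := by
  have h1 := h.antiB i i
  have h3 : (2 : F) • b i i = 0 := by
    rw [two_smul]; nth_rewrite 1 [h1]; exact neg_add_cancel _
  exact (smul_eq_zero.1 h3).resolve_left h2

/-- the restriction to `A_8` -/
theorem Nin.sev (h : Nin ψ a b c) (h2 : (2 : F) ≠ 0) (h3 : (3 : F) = 0) :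
    Sev (ψ.comp res9) (fun i : Fin 8 => a i.castSucc 8) (fun i : Fin 8 => b i.castSucc 8) (-c) where
  actA g i := by
    show V F (ψ (res9 g)) _ = _
    rw [h.actA, res9_cast, res9_last]
  actB g i := by
    show V F (ψ (res9 g)) _ = _
    rw [h.actB, res9_cast, res9_last]
  sumA := by
    have h1 := h.sumA 8
    rw [Fin.sum_univ_castSucc] at h1
    have h4 : a (Fin.last 8) 8 = 0 := h.diagA h2 8
    rwa [h4, add_zero] at h1
  sumB := by
    have h1 := h.sumB 8
    rw [Fin.sum_univ_castSucc] at h1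
    have h4 : b (Fin.last 8) 8 = 0 := h.diagB h2 8
    rwa [h4, add_zero] at h1
  isoA _ _ := h.isoA _ _ _ _
  isoB _ _ := h.isoB _ _ _ _
  ab i j := by
    rw [h.ab]
    have hi : i.castSucc ≠ (8 : Fin 9) := by
      intro h'
      have h7 : (i : ℕ) = 8 := congrArg Fin.val h'
      have h9 := i.2
      omega
    have hj : (8 : Fin 9) ≠ j.castSucc := by
      intro h'
      have := congrArg Fin.val h'
      rw [Fin.val_castSucc] at this
      have h8 : ((8 : Fin 9) : ℕ) = 8 := rfl
      have h9 := j.2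
      omega
    unfold gm
    rw [if_neg hi, if_neg hj, if_pos rfl]
    by_cases hij : i = j
    · subst hij
      rw [if_pos rfl, if_pos rfl]
      linear_combination (3 * c) * h3
    · rw [if_neg hij, if_neg (fun h' => hij (Fin.castSucc_injective _ h'))]
      ring
  ne := neg_ne_zero.2 h.ne

/-- the cyclic sum -/
def sg (a : Fin 9 → Fin 9 → D1 → F) (i j k : Fin 9) : D1 → F := a i j + a j k + a k i

theorem gm_sg (i j k : Fin 9) : gm F i j i j + gm F j k i j + gm F k i i j = 0 := by
  unfold gm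
  have e : ∀ x y : Fin 9, (if x = y then (1 : F) else 0) = if y = x then 1 else 0 := fun x y => by
    by_cases h : x = y
    · rw [if_pos h, if_pos h.symm]
    · rw [if_neg h, if_neg (Ne.symm h)]
  rw [if_pos rfl, if_pos rfl, e j i, e k j, e k i]
  ring

end

section ext
variable {F K : Type u} [Field F] [Field K] (f : F →+* K) {ψ : ↥(alternatingGroup (Fin 9)) →* Gh F}
  {a b : Fin 9 → Fin 9 → D1 → F} {c : F}

/-- the combination over the extension -/
def cn (a b : Fin 9 → Fin 9 → D1 → F) (s t : K) (i j : Fin 9) : D1 → K :=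
  s • (fun x => f (a i j x)) + t • (fun x => f (b i j x))

theorem cn_cb (s t : K) (i : Fin 8) :
    cn f a b s t i.castSucc 8 = cb f (fun i : Fin 8 => a i.castSucc 8) (fun i : Fin 8 => b i.castSucc 8) s t i := rfl

theorem act_cn (h : Nin ψ a b c) (s t : K) (g : ↥(alternatingGroup (Fin 9))) (i j : Fin 9) :
    V K (emb f (ψ g)) (cn f a b s t i j) = cn f a b s t ((g : Perm (Fin 9)) i) ((g : Perm (Fin 9)) j) := by
  unfold cn
  rw [map_add, map_smul, map_smul, V_emb, V_emb, h.actA, h.actB]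

theorem sf_cn (h : Nin ψ a b c) (s t s' t' : K) (i j k l : Fin 9) :
    sf K (cn f a b s t i j) (cn f a b s' t' k l) = (s * t' - t * s') * f (c * gm F i j k l) := by
  have hsw : ∀ i j k l : Fin 9, gm F i j k l = gm F k l i j := by
    intro i j k l
    unfold gm
    have e : ∀ x y : Fin 9, (if x = y then (1 : F) else 0) = if y = x then 1 else 0 := fun x y => by
      by_cases h : x = y
      · rw [if_pos h, if_pos h.symm]
      · rw [if_neg h, if_neg (Ne.symm h)]
    rw [e i k, e j l, e i l, e j k]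
    ring
  have h1 : sf F (b i j) (a k l) = - (c * gm F i j k l) := by
    rw [sf_swap, h.ab, hsw]
  unfold cn
  simp only [map_add, map_smul, LinearMap.add_apply, LinearMap.smul_apply, smul_eq_mul, sf_emb, h.isoA, h.isoB,
    h1, h.ab, map_zero, mul_zero, zero_add, add_zero, map_neg]
  ring

theorem cn_anti (h : Nin ψ a b c) (s t : K) (i j : Fin 9) : cn f a b s t j i = - cn f a b s t i j := by
  unfold cn
  rw [h.antiA, h.antiB]
  funext x
  simp only [Pi.add_apply, Pi.smul_apply, smul_eq_mul, Pi.neg_apply, map_neg]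
  ring

/-- `D(n_ik u, n_jk u) = 0` -/
theorem D_cn (h : Nin ψ a b c) (h2 : (2 : F) ≠ 0) {s t : K}
    (hT : TP K (cb f (fun i : Fin 8 => a i.castSucc 8) (fun i : Fin 8 => b i.castSucc 8) s t)) (i j k : Fin 9) :
    DD K (cn f a b s t i k) (cn f a b s t j k) = 0 := by
  have h2K : (2 : K) ≠ 0 := by
    intro h'
    apply h2
    apply (map_eq_zero f).1
    rw [map_ofNat]; exact h'
  have h88 : cn f a b s t 8 8 = 0 := by
    unfold cn
    rw [h.diagA h2, h.diagB h2]
    funext x
    simp
  -- the case `k = 8`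
  have key : ∀ i j : Fin 9, DD K (cn f a b s t i 8) (cn f a b s t j 8) = 0 := by
    intro i j
    induction i using Fin.lastCases with
    | last =>
      have : cn f a b s t (Fin.last 8) 8 = 0 := h88
      rw [this, DD_zero_left]
    | cast i =>
      induction j using Fin.lastCases with
      | last =>
        have : cn f a b s t (Fin.last 8) 8 = 0 := h88
        rw [this, DD_zero_right]
      | cast j => exact hT.zero h2K i j
  -- an even permutation which maps `8` to `k`
  obtain ⟨g, hg⟩ : ∃ g : ↥(alternatingGroup (Fin 9)), (g : Perm (Fin 9)) 8 = k := by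
    by_cases hk : k = 8
    · exact ⟨1, hk.symm⟩
    · obtain ⟨x, y, hx8, hy8, hxk, hyk, hxy⟩ : ∃ x y : Fin 9, x ≠ 8 ∧ y ≠ 8 ∧ x ≠ k ∧ y ≠ k ∧ x ≠ y := by
        revert k
        decide
      refine ⟨⟨swap 8 k * swap x y, ?_⟩, ?_⟩
      · rw [Perm.mem_alternatingGroup, Perm.sign_mul, Perm.sign_swap (Ne.symm hk), Perm.sign_swap hxy]; rfl
      · show (swap 8 k * swap x y) 8 = k
        rw [Perm.mul_apply, swap_apply_of_ne_of_ne (Ne.symm hx8) (Ne.symm hy8), swap_apply_left]
  have e1 : cn f a b s t i k = V K (emb f (ψ g)) (cn f a b s t ((g : Perm (Fin 9))⁻¹ i) 8) := by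
    rw [act_cn f h, hg]
    congr 1
    exact ((g : Perm (Fin 9)).apply_symm_apply i).symm
  have e2 : cn f a b s t j k = V K (emb f (ψ g)) (cn f a b s t ((g : Perm (Fin 9))⁻¹ j) 8) := by
    rw [act_cn f h, hg]
    congr 1
    exact ((g : Perm (Fin 9)).apply_symm_apply j).symm
  rw [e1, e2, DD_V_iff]
  exact key _ _

theorem D_cn' (h : Nin ψ a b c) (h2 : (2 : F) ≠ 0) {s t : K}
    (hT : TP K (cb f (fun i : Fin 8 => a i.castSucc 8) (fun i : Fin 8 => b i.castSucc 8) s t)) (i j k : Fin 9) :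
    DD K (cn f a b s t i j) (cn f a b s t i k) = 0 := by
  rw [cn_anti f h s t j i, cn_anti f h s t k i, DD_neg_left, DD_neg_right, D_cn f h h2 hT]
  simp

/-- the cyclic sum over the extension -/
def sgK (a b : Fin 9 → Fin 9 → D1 → F) (s t : K) (i j k : Fin 9) : D1 → K :=
  cn f a b s t i j + cn f a b s t j k + cn f a b s t k i

theorem D_sg (h : Nin ψ a b c) (h2 : (2 : F) ≠ 0) {s t : K}
    (hT : TP K (cb f (fun i : Fin 8 => a i.castSucc 8) (fun i : Fin 8 => b i.castSucc 8) s t)) (i j k : Fin 9) :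
    DD K (sgK f a b s t i j k) (cn f a b s t i j) = 0 := by
  have e1 := D_cn' f h h2 hT i j j
  have e2 : DD K (cn f a b s t j k) (cn f a b s t i j) = 0 := by
    rw [cn_anti f h s t k j, DD_neg_left, D_cn f h h2 hT, neg_zero]
  have e3 : DD K (cn f a b s t k i) (cn f a b s t i j) = 0 := by
    rw [cn_anti f h s t i k, DD_neg_left, D_cn' f h h2 hT, neg_zero]
  unfold sgK
  rw [DD_add_left, DD_add_left, e1, e2, e3]
  simp

end ext

end Cfsg.Agent.R2.T1.P3
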