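import Cfsg.Agent.R2.T1.P3.N4

/-!
# S5771, box P3, `p = 3`, `n = 9` (helper3), part 2

* `Zc a b s t` : the cyclic sums of `s • a + t • b` vanish;
* `third` : a vector off the two pure lines in the kernel forces all the cyclic sums to vanish;
* `dicho` : either all the cyclic sums vanish or all the vectors of the span of the kernel are pure.
-/

set_option autoImplicit false

namespace Cfsg.Agent.R2.T1.P3

open Cfsg Cfsg.Lie Module Matrix
open Cfsg.Agent.R2.T1 Cfsg.Agent.R2.T1.Mu Cfsg.Agent.R2.PX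
open Cfsg.Agent.H943.E7V.Block (D1 rho)
open Cfsg.Agent.H952.F4 (MaxAlt)
open Equiv

universe u

/-- the kernel of the cyclic sums -/
def Zc {F : Type u} [Field F] (a b : Fin 9 → Fin 9 → D1 → F) (s t : F) : Prop :=
  ∀ i j k, s • sg a i j k + t • sg b i j k = 0

/-- the span of the kernel -/
def WZ {F : Type u} [Field F] (a b : Fin 9 → Fin 9 → D1 → F) : Submodule F (D1 → F) :=
  Submodule.span F {w | ∃ s t i j, Zc a b s t ∧ w = s • a i j + t • b i j}

section ext
variable {F K : Type u} [Field F] [Field K] (f : F →+* K) {ψ : ↥(alternatingGroup (Fin 9)) →* Gh F}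
  {a b : Fin 9 → Fin 9 → D1 → F} {c : F}

theorem cn_lin (s t s' t' α β : K) (i j : Fin 9) :
    cn f a b (α * s + β * s') (α * t + β * t') i j = α • cn f a b s t i j + β • cn f a b s' t' i j := by
  unfold cn
  module

theorem sgK_lin (s t s' t' α β : K) (i j k : Fin 9) :
    sgK f a b (α * s + β * s') (α * t + β * t') i j k = α • sgK f a b s t i j k + β • sgK f a b s' t' i j k := by
  unfold sgK
  rw [cn_lin, cn_lin, cn_lin]
  module

theorem cn_emb (s t : F) (i j : Fin 9) : cn f a b (f s) (f t) i j = fun x => f ((s • a i j + t • b i j) x) := by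
  funext x
  unfold cn
  simp only [Pi.add_apply, Pi.smul_apply, smul_eq_mul, map_add, map_mul]

theorem sgK_emb (s t : F) (i j k : Fin 9) :
    sgK f a b (f s) (f t) i j k = fun x => f ((s • sg a i j k + t • sg b i j k) x) := by
  funext x
  unfold sgK
  rw [cn_emb, cn_emb, cn_emb]
  simp only [sg, Pi.add_apply, Pi.smul_apply, smul_eq_mul, map_add, map_mul]
  ring

theorem gm_self {i j : Fin 9} (hij : i ≠ j) : gm F i j i j = 2 := by
  unfold gm
  rw [if_pos rfl, if_pos rfl, if_neg hij, if_neg (Ne.symm hij)]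
  ring

theorem sgK_deg (h : Nin ψ a b c) (h2 : (2 : F) ≠ 0) (s t : K) (i k : Fin 9) : sgK f a b s t i i k = 0 := by
  have h2K : (2 : K) ≠ 0 := by
    intro h'
    apply h2
    apply (map_eq_zero f).1
    rw [map_ofNat]; exact h'
  have h1 : cn f a b s t i i = 0 := by
    have h3 := cn_anti f h s t i i
    have h4 : (2 : K) • cn f a b s t i i = 0 := by
      rw [two_smul]; nth_rewrite 1 [h3]; exact neg_add_cancel _
    exact (smul_eq_zero.1 h4).resolve_left h2K
  unfold sgK
  rw [h1, cn_anti f h s t i k]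
  simp

/-- the third case -/
theorem third (h : Nin ψ a b c) (h2 : (2 : F) ≠ 0) {s1 t1 s2 t2 : K} (hΔ : s1 * t2 - t1 * s2 ≠ 0)
    (T1 : TP K (cb f (fun i : Fin 8 => a i.castSucc 8) (fun i : Fin 8 => b i.castSucc 8) s1 t1))
    (T2 : TP K (cb f (fun i : Fin 8 => a i.castSucc 8) (fun i : Fin 8 => b i.castSucc 8) s2 t2)) {α β : K}
    (hα : α ≠ 0) (i j k : Fin 9)
    (h0 : α • sgK f a b s1 t1 i j k + β • sgK f a b s2 t2 i j k = 0) : sgK f a b s1 t1 i j k = 0 := by
  have h2K : (2 : K) ≠ 0 := by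
    intro h'
    apply h2
    apply (map_eq_zero f).1
    rw [map_ofNat]; exact h'
  by_cases hij : i = j
  · subst hij; exact sgK_deg f h h2 _ _ _ _
  have hx : sgK f a b s1 t1 i j k = (-(α⁻¹ * β)) • sgK f a b s2 t2 i j k := by
    have h3 : α • sgK f a b s1 t1 i j k = -(β • sgK f a b s2 t2 i j k) := eq_neg_of_add_eq_zero_left h0
    calc sgK f a b s1 t1 i j k = α⁻¹ • (α • sgK f a b s1 t1 i j k) := by rw [smul_smul, inv_mul_cancel₀ hα, one_smul]
      _ = _ := by rw [h3, smul_neg, smul_smul, neg_smul]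
  have hxz : DD K (sgK f a b s1 t1 i j k) (cn f a b s1 t1 i j) = 0 := D_sg f h h2 T1 i j k
  have hxy : DD K (sgK f a b s1 t1 i j k) (cn f a b s2 t2 i j) = 0 := by
    rw [hx, DD_smul_left, D_sg f h h2 T2 i j k, smul_zero]
  have h1 := ident (F := K) (sgK f a b s1 t1 i j k) (cn f a b s2 t2 i j) (cn f a b s1 t1 i j)
  have hsz : sf K (sgK f a b s1 t1 i j k) (cn f a b s1 t1 i j) = 0 := by
    unfold sgK
    rw [map_add, map_add, LinearMap.add_apply, LinearMap.add_apply, sf_cn f h, sf_cn f h, sf_cn f h, mul_comm t1 s1, sub_self]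
    ring
  have hsy : sf K (sgK f a b s1 t1 i j k) (cn f a b s2 t2 i j) = 0 := by
    unfold sgK
    rw [map_add, map_add, LinearMap.add_apply, LinearMap.add_apply, sf_cn f h, sf_cn f h, sf_cn f h, ← mul_add, ← mul_add,
      ← map_add, ← map_add, ← mul_add, ← mul_add, gm_sg, mul_zero, map_zero, mul_zero]
  have hyz : sf K (cn f a b s2 t2 i j) (cn f a b s1 t1 i j) = -((s1 * t2 - t1 * s2) * f (c * 2)) := by
    rw [sf_cn f h, gm_self hij]
    ring
  rw [hxz, hxy, Matrix.zero_mulVec, Matrix.zero_mulVec, hsz, hsy, hyz, zero_smul, zero_smul, sub_zero, sub_zero, add_zero] at h1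
  refine (smul_eq_zero.1 h1.symm).resolve_left ?_
  exact mul_ne_zero h2K (neg_ne_zero.2 (mul_ne_zero hΔ fun h' => (mul_ne_zero h.ne h2) ((map_eq_zero f).1 h')))

/-- the dichotomy -/
theorem dicho (h : Nin ψ a b c) (h2 : (2 : F) ≠ 0)
    (hs : Sev (ψ.comp res9) (fun i : Fin 8 => a i.castSucc 8) (fun i : Fin 8 => b i.castSucc 8) (-c))
    (hP : PQ f (fun i : Fin 8 => a i.castSucc 8) (fun i : Fin 8 => b i.castSucc 8))
    (h0 : ∃ s t : F, (s ≠ 0 ∨ t ≠ 0) ∧ Zc a b s t) :
    (∀ s t, Zc a b s t) ∨ ∀ x ∈ WZ a b, PX.Pure F x := by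
  obtain ⟨s1, t1, s2, t2, hΔ, hp1, hp2⟩ := hP
  have T1 := tp_cb f hs hp1
  have T2 := tp_cb f hs hp2
  by_cases hall : ∀ s t, Zc a b s t
  · exact Or.inl hall
  right
  set Δ : K := s1 * t2 - t1 * s2 with hΔdef
  have key : Δ⁻¹ * Δ = 1 := inv_mul_cancel₀ hΔ
  -- coordinates
  let al : F → F → K := fun s t => Δ⁻¹ * (f s * t2 - f t * s2)
  let be : F → F → K := fun s t => Δ⁻¹ * (f t * s1 - f s * t1)
  have hs1 : ∀ s t, f s = al s t * s1 + be s t * s2 := fun s t => by
    show f s = Δ⁻¹ * (f s * t2 - f t * s2) * s1 + Δ⁻¹ * (f t * s1 - f s * t1) * s2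
    linear_combination (-(f s)) * key + Δ⁻¹ * f s * hΔdef
  have ht1 : ∀ s t, f t = al s t * t1 + be s t * t2 := fun s t => by
    show f t = Δ⁻¹ * (f s * t2 - f t * s2) * t1 + Δ⁻¹ * (f t * s1 - f s * t1) * t2
    linear_combination (-(f t)) * key + Δ⁻¹ * f t * hΔdef
  have hcn : ∀ s t i j, cn f a b (f s) (f t) i j = al s t • cn f a b s1 t1 i j + be s t • cn f a b s2 t2 i j := by
    intro s t i j
    rw [← cn_lin, ← hs1, ← ht1]
  have hsgK : ∀ s t i j k, sgK f a b (f s) (f t) i j k = al s t • sgK f a b s1 t1 i j k + be s t • sgK f a b s2 t2 i j k := by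
    intro s t i j k
    rw [← sgK_lin, ← hs1, ← ht1]
  have hZ : ∀ s t, Zc a b s t ↔ ∀ i j k, al s t • sgK f a b s1 t1 i j k + be s t • sgK f a b s2 t2 i j k = 0 := by
    intro s t
    constructor
    · intro hz i j k
      rw [← hsgK, sgK_emb, hz i j k]
      funext x
      simp
    · intro hz i j k
      have h3 := hz i j k
      rw [← hsgK, sgK_emb] at h3
      funext x
      exact (map_eq_zero f).1 (congrFun h3 x)
  -- no element of the kernel is off the two lines
  have hline : ∀ s t, Zc a b s t → al s t = 0 ∨ be s t = 0 := by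
    intro s t hz
    by_contra hcon
    push Not at hcon
    apply hall
    have h3 := (hZ s t).1 hz
    have e1 : ∀ i j k, sgK f a b s1 t1 i j k = 0 := fun i j k => third f h h2 hΔ T1 T2 hcon.1 i j k (h3 i j k)
    have e2 : ∀ i j k, sgK f a b s2 t2 i j k = 0 := fun i j k => by
      have h4 := h3 i j k
      rw [e1, smul_zero, zero_add] at h4
      exact (smul_eq_zero.1 h4).resolve_left hcon.2
    intro s' t'
    rw [hZ]
    intro i j k
    rw [e1, e2, smul_zero, smul_zero, add_zero]
  have hZadd : ∀ {s t s' t'}, Zc a b s t → Zc a b s' t' → Zc a b (s + s') (t + t') := by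
    intro s t s' t' hz hz' i j k
    have h3 := hz i j k
    have h4 := hz' i j k
    calc (s + s') • sg a i j k + (t + t') • sg b i j k
        = (s • sg a i j k + t • sg b i j k) + (s' • sg a i j k + t' • sg b i j k) := by module
      _ = 0 := by rw [h3, h4, add_zero]
  have hal : ∀ s t s' t', al (s + s') (t + t') = al s t + al s' t' := fun s t s' t' => by
    show Δ⁻¹ * (f (s + s') * t2 - f (t + t') * s2) = Δ⁻¹ * (f s * t2 - f t * s2) + Δ⁻¹ * (f s' * t2 - f t' * s2)
    rw [map_add, map_add]; ring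
  have hbe : ∀ s t s' t', be (s + s') (t + t') = be s t + be s' t' := fun s t s' t' => by
    show Δ⁻¹ * (f (t + t') * s1 - f (s + s') * t1) = Δ⁻¹ * (f t * s1 - f s * t1) + Δ⁻¹ * (f t' * s1 - f s' * t1)
    rw [map_add, map_add]; ring
  have hnz : ∀ s t, al s t = 0 → be s t = 0 → s = 0 ∧ t = 0 := by
    intro s t h3 h4
    have h5 := hs1 s t
    have h6 := ht1 s t
    rw [h3, h4, zero_mul, zero_mul, add_zero] at h5 h6
    exact ⟨(map_eq_zero f).1 h5, (map_eq_zero f).1 h6⟩
  obtain ⟨s0, t0, hne, hz0⟩ := h0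
  -- purity from vanishing of `D` on one line
  have pure_of : ∀ (s' t' : K) (T : TP K (cb f (fun i : Fin 8 => a i.castSucc 8) (fun i : Fin 8 => b i.castSucc 8) s' t'))
      (hsg : ∀ i j k, sgK f a b s' t' i j k = 0)
      (hl : ∀ s t, Zc a b s t → ∃ α : K, ∀ i j, cn f a b (f s) (f t) i j = α • cn f a b s' t' i j),
      ∀ x ∈ WZ a b, PX.Pure F x := by
    intro s' t' T hsg hl
    have hd : ∀ i j, cn f a b s' t' i j = cn f a b s' t' i 8 - cn f a b s' t' j 8 := by
      intro i j
      have h3 := hsg i j 8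
      unfold sgK at h3
      rw [cn_anti f h s' t' i 8] at h3
      rw [eq_sub_iff_add_eq, ← sub_eq_zero, ← h3]
      abel
    have hD : ∀ i j k l, DD K (cn f a b s' t' i j) (cn f a b s' t' k l) = 0 := by
      intro i j k l
      rw [hd i j, hd k l, sub_eq_add_neg, sub_eq_add_neg, DD_add_left, DD_add_right, DD_add_right, DD_neg_left, DD_neg_left,
        DD_neg_right, DD_neg_right, D_cn f h h2 T, D_cn f h h2 T, D_cn f h h2 T, D_cn f h h2 T]
      simp
    have hDF : ∀ s t i j, Zc a b s t → ∀ s'' t'' k l, Zc a b s'' t'' →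
        DD F (s • a i j + t • b i j) (s'' • a k l + t'' • b k l) = 0 := by
      intro s t i j hz s'' t'' k l hz'
      obtain ⟨α, hα⟩ := hl s t hz
      obtain ⟨β, hβ⟩ := hl s'' t'' hz'
      have h3 : (DD F (s • a i j + t • b i j) (s'' • a k l + t'' • b k l)).map f = 0 := by
        rw [← DD_emb, ← cn_emb, ← cn_emb, hα, hβ, DD_smul_left, DD_smul_right, hD, smul_zero, smul_zero]
      ext x y
      have h4 := congrFun (congrFun h3 x) y
      rw [Matrix.map_apply, Matrix.zero_apply] at h4
      rw [Matrix.zero_apply]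
      exact (map_eq_zero f).1 h4
    have hDW : ∀ x ∈ WZ a b, ∀ y ∈ WZ a b, DD F x y = 0 := by
      intro x hx
      induction hx using Submodule.span_induction with
      | zero => intro y _; exact DD_zero_left y
      | add x x' _ _ hx hx' => intro y hy; rw [DD_add_left, hx y hy, hx' y hy, add_zero]
      | smul r x _ hx => intro y hy; rw [DD_smul_left, hx y hy, smul_zero]
      | mem x hx =>
        obtain ⟨s, t, i, j, hz, rfl⟩ := hx
        intro y hy
        induction hy using Submodule.span_induction with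
        | zero => exact DD_zero_right _
        | add y y' _ _ hy hy' => rw [DD_add_right, hy, hy', add_zero]
        | smul r y _ hy => rw [DD_smul_right, hy, smul_zero]
        | mem y hy =>
          obtain ⟨s'', t'', k, l, hz', rfl⟩ := hy
          exact hDF s t i j hz s'' t'' k l hz'
    intro x hx
    exact hDW x hx x hx
  rcases hline s0 t0 hz0 with hc | hc
  · -- on the second line
    have hb0 : be s0 t0 ≠ 0 := fun h' => by
      obtain ⟨e1, e2⟩ := hnz s0 t0 hc h'
      rcases hne with h3 | h3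
      · exact h3 e1
      · exact h3 e2
    have hl : ∀ s t, Zc a b s t → al s t = 0 := by
      intro s t hz
      rcases hline s t hz with h3 | h3
      · exact h3
      · rcases hline _ _ (hZadd hz hz0) with h4 | h4
        · rw [hal, hc, add_zero] at h4; exact h4
        · rw [hbe, h3, zero_add] at h4; exact absurd h4 hb0
    refine pure_of s2 t2 T2 (fun i j k => ?_) fun s t hz => ⟨be s t, fun i j => ?_⟩
    · have h3 := (hZ s0 t0).1 hz0 i j k
      rw [hc, zero_smul, zero_add] at h3
      exact (smul_eq_zero.1 h3).resolve_left hb0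
    · rw [hcn, hl s t hz, zero_smul, zero_add]
  · have ha0 : al s0 t0 ≠ 0 := fun h' => by
      obtain ⟨e1, e2⟩ := hnz s0 t0 h' hc
      rcases hne with h3 | h3
      · exact h3 e1
      · exact h3 e2
    have hl : ∀ s t, Zc a b s t → be s t = 0 := by
      intro s t hz
      rcases hline s t hz with h3 | h3
      · rcases hline _ _ (hZadd hz hz0) with h4 | h4
        · rw [hal, h3, zero_add] at h4; exact absurd h4 ha0
        · rw [hbe, hc, add_zero] at h4; exact h4
      · exact h3
    refine pure_of s1 t1 T1 (fun i j k => ?_) fun s t hz => ⟨al s t, fun i j => ?_⟩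
    · have h3 := (hZ s0 t0).1 hz0 i j k
      rw [hc, zero_smul, add_zero] at h3
      exact (smul_eq_zero.1 h3).resolve_left ha0
    · rw [hcn, hl s t hz, zero_smul, add_zero]

end ext

end Cfsg.Agent.R2.T1.P3
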