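import Cfsg.Agent.R2.T1.P3.N4b

/-!
# S5771, box P3, `p = 3`, `n = 9` (helper3), part 3

* `V_h` : the action of an element which normalises the image of `A_9`;
* `stab_WZ`, `stab_V7` : stability under the preimage of `H`.
-/

set_option autoImplicit false

namespace Cfsg.Agent.R2.T1.P3

open Cfsg Cfsg.Lie Module Matrix
open Cfsg.Agent.R2.T1 Cfsg.Agent.R2.T1.Mu Cfsg.Agent.R2.PX
open Cfsg.Agent.H943.E7V.Block (D1 rho)
open Cfsg.Agent.H952.F4 (MaxAlt)
open Equiv

universe u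

/-- the vectors fixed by `A_7` are the combinations of `a 7 8`, `b 7 8` -/
def FixA7 {F : Type u} [Field F] (ψ : ↥(alternatingGroup (Fin 9)) →* Gh F) (a b : Fin 9 → Fin 9 → D1 → F) : Prop :=
  ∀ w : D1 → F, (∀ g : ↥(alternatingGroup (Fin 9)), (g : Perm (Fin 9)) 7 = 7 → (g : Perm (Fin 9)) 8 = 8 →
    V F (ψ g) w = w) → ∃ s t : F, w = s • a 7 8 + t • b 7 8

/-- `h` induces the permutation `σ` -/
def Ind {F : Type u} [Field F] (ψ : ↥(alternatingGroup (Fin 9)) →* Gh F) (h : Gh F) (σ : Perm (Fin 9)) : Prop :=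
  ∀ a b : ↥(alternatingGroup (Fin 9)), (b : Perm (Fin 9)) = σ * a * σ⁻¹ → h * ψ a * h⁻¹ = ψ b

/-- 2-transitivity -/
theorem exists_two {i j : Fin 9} (hij : i ≠ j) : ∃ g : ↥(alternatingGroup (Fin 9)), (g : Perm (Fin 9)) 7 = i ∧
    (g : Perm (Fin 9)) 8 = j := by
  obtain ⟨σ, h7, h8⟩ : ∃ σ : Perm (Fin 9), σ 7 = i ∧ σ 8 = j := by
    by_cases h7 : i = 7
    · subst h7
      refine ⟨swap 8 j, ?_, swap_apply_left _ _⟩
      exact swap_apply_of_ne_of_ne (by decide) hij
    · by_cases h : swap 7 i j = 8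
      · refine ⟨swap 7 i, swap_apply_left _ _, ?_⟩
        rw [← h]; exact swap_apply_self _ _ _ |>.trans rfl
      · refine ⟨swap 7 i * swap 8 (swap 7 i j), ?_, ?_⟩
        · have h10 : swap 8 (swap 7 i j) 7 = 7 := by
            refine swap_apply_of_ne_of_ne (by decide) ?_
            intro h'
            have h9 := congrArg (swap 7 i) h'
            rw [swap_apply_left, swap_apply_self] at h9
            exact hij h9
          rw [Perm.mul_apply, h10, swap_apply_left]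
        · rw [Perm.mul_apply, swap_apply_left, swap_apply_self]
  rcases Int.units_eq_one_or (Perm.sign σ) with h | h
  · exact ⟨⟨σ, Perm.mem_alternatingGroup.2 h⟩, h7, h8⟩
  · refine ⟨⟨σ * swap 0 1, Perm.mem_alternatingGroup.2 ?_⟩, ?_, ?_⟩
    · rw [Perm.sign_mul, h, Perm.sign_swap (by decide)]; rfl
    · show (σ * swap 0 1 : Perm (Fin 9)) 7 = i
      rw [Perm.mul_apply, swap_apply_of_ne_of_ne (by decide) (by decide), h7]
    · show (σ * swap 0 1 : Perm (Fin 9)) 8 = j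
      rw [Perm.mul_apply, swap_apply_of_ne_of_ne (by decide) (by decide), h8]

section
variable {F : Type u} [Field F] {ψ : ↥(alternatingGroup (Fin 9)) →* Gh F} {a b : Fin 9 → Fin 9 → D1 → F} {c : F}

/-- the conjugate of an element of `A_9` -/
def cj (σ : Perm (Fin 9)) (g : ↥(alternatingGroup (Fin 9))) : ↥(alternatingGroup (Fin 9)) :=
  ⟨σ * g * σ⁻¹, by
    rw [Perm.mem_alternatingGroup, Perm.sign_mul, Perm.sign_mul, Perm.sign_inv, Perm.mem_alternatingGroup.1 g.2, mul_one,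
      Int.units_mul_self]⟩

theorem ind_V {h : Gh F} {σ : Perm (Fin 9)} (hI : Ind ψ h σ) (g : ↥(alternatingGroup (Fin 9))) (w : D1 → F) :
    V F h (V F (ψ g) w) = V F (ψ (cj σ g)) (V F h w) := by
  have h1 := hI g (cj σ g) rfl
  rw [← h1, ← Module.End.mul_apply, ← Module.End.mul_apply, ← map_mul, ← map_mul, inv_mul_cancel_right]

/-- a vector of the form `a 7 8` is mapped to a combination -/
theorem img (hN : Nin ψ a b c) (hF : FixA7 ψ a b) {h : Gh F} {σ : Perm (Fin 9)} (hI : Ind ψ h σ) {w : D1 → F}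
    (hw : ∀ g : ↥(alternatingGroup (Fin 9)), (g : Perm (Fin 9)) 7 = 7 → (g : Perm (Fin 9)) 8 = 8 → V F (ψ g) w = w) :
    ∃ s t : F, V F h w = s • a (σ 7) (σ 8) + t • b (σ 7) (σ 8) := by
  have hne : σ 7 ≠ σ 8 := fun h' => absurd (σ.injective h') (by decide)
  obtain ⟨k, h7, h8⟩ := exists_two hne
  obtain ⟨s, t, hst⟩ := hF (V F (ψ k⁻¹) (V F h w)) (by
    intro g g7 g8
    -- `k g k⁻¹ = σ g' σ⁻¹`
    let g' : ↥(alternatingGroup (Fin 9)) := cj σ⁻¹ (k * g * k⁻¹)
    have e1 : cj σ g' = k * g * k⁻¹ := by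
      apply Subtype.ext
      show σ * (σ⁻¹ * ((k * g * k⁻¹ : ↥(alternatingGroup (Fin 9))) : Perm (Fin 9)) * σ⁻¹⁻¹) * σ⁻¹ = _
      group
    have hk7 : (k : Perm (Fin 9))⁻¹ (σ 7) = 7 := by
      rw [← h7]; exact (k : Perm (Fin 9)).symm_apply_apply 7
    have hk8 : (k : Perm (Fin 9))⁻¹ (σ 8) = 8 := by
      rw [← h8]; exact (k : Perm (Fin 9)).symm_apply_apply 8
    have e7 : (g' : Perm (Fin 9)) 7 = 7 := by
      show σ⁻¹ ((k : Perm (Fin 9)) ((g : Perm (Fin 9)) ((k : Perm (Fin 9))⁻¹ (σ⁻¹⁻¹ 7)))) = 7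
      rw [inv_inv, hk7, g7, h7]
      exact σ.symm_apply_apply 7
    have e8 : (g' : Perm (Fin 9)) 8 = 8 := by
      show σ⁻¹ ((k : Perm (Fin 9)) ((g : Perm (Fin 9)) ((k : Perm (Fin 9))⁻¹ (σ⁻¹⁻¹ 8)))) = 8
      rw [inv_inv, hk8, g8, h8]
      exact σ.symm_apply_apply 8
    have h1 := ind_V hI g' w
    rw [hw g' e7 e8, e1] at h1
    calc V F (ψ g) (V F (ψ k⁻¹) (V F h w)) = V F (ψ k⁻¹) (V F (ψ (k * g * k⁻¹)) (V F h w)) := by
          rw [← Module.End.mul_apply (V F (ψ g)), ← Module.End.mul_apply (V F (ψ k⁻¹)), ← map_mul (V F), ← map_mul (V F),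
            ← map_mul ψ, ← map_mul ψ]
          congr 3
          group
      _ = V F (ψ k⁻¹) (V F h w) := by rw [← h1])
  refine ⟨s, t, ?_⟩
  have h1 := congrArg (V F (ψ k)) hst
  rw [map_add, map_smul, map_smul, hN.actA, hN.actB, h7, h8, ← Module.End.mul_apply, ← map_mul, ← map_mul,
    mul_inv_cancel, map_one, map_one] at h1
  exact h1

/-- the action of an element which normalises the image of `A_9` -/
theorem V_h (hN : Nin ψ a b c) (h2 : (2 : F) ≠ 0) (hF : FixA7 ψ a b) {h : Gh F} {σ : Perm (Fin 9)} (hI : Ind ψ h σ) :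
    ∃ p q p' q' : F, (∀ i j, V F h (a i j) = p • a (σ i) (σ j) + q • b (σ i) (σ j)) ∧
      ∀ i j, V F h (b i j) = p' • a (σ i) (σ j) + q' • b (σ i) (σ j) := by
  obtain ⟨p, q, hpq⟩ := img hN hF hI (w := a 7 8) (fun g g7 g8 => by rw [hN.actA, g7, g8])
  obtain ⟨p', q', hpq'⟩ := img hN hF hI (w := b 7 8) (fun g g7 g8 => by rw [hN.actB, g7, g8])
  refine ⟨p, q, p', q', fun i j => ?_, fun i j => ?_⟩
  · by_cases hij : i = j
    · subst hij
      rw [hN.diagA h2, hN.diagA h2, hN.diagB h2]; simp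
    · obtain ⟨g, h7, h8⟩ := exists_two hij
      have h1 := ind_V hI g (a 7 8)
      have e7 : (cj σ g : Perm (Fin 9)) (σ 7) = σ i := by
        show σ ((g : Perm (Fin 9)) (σ⁻¹ (σ 7))) = σ i
        rw [← h7]; congr 2; exact σ.symm_apply_apply 7
      have e8 : (cj σ g : Perm (Fin 9)) (σ 8) = σ j := by
        show σ ((g : Perm (Fin 9)) (σ⁻¹ (σ 8))) = σ j
        rw [← h8]; congr 2; exact σ.symm_apply_apply 8
      rw [hN.actA, h7, h8, hpq, map_add, map_smul, map_smul, hN.actA, hN.actB, e7, e8] at h1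
      exact h1
  · by_cases hij : i = j
    · subst hij
      rw [hN.diagB h2, hN.diagA h2, hN.diagB h2]; simp
    · obtain ⟨g, h7, h8⟩ := exists_two hij
      have h1 := ind_V hI g (b 7 8)
      have e7 : (cj σ g : Perm (Fin 9)) (σ 7) = σ i := by
        show σ ((g : Perm (Fin 9)) (σ⁻¹ (σ 7))) = σ i
        rw [← h7]; congr 2; exact σ.symm_apply_apply 7
      have e8 : (cj σ g : Perm (Fin 9)) (σ 8) = σ j := by
        show σ ((g : Perm (Fin 9)) (σ⁻¹ (σ 8))) = σ j
        rw [← h8]; congr 2; exact σ.symm_apply_apply 8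
      rw [hN.actB, h7, h8, hpq', map_add, map_smul, map_smul, hN.actA, hN.actB, e7, e8] at h1
      exact h1

variable {H : Subgroup ↥(chevE7.group F)}

/-- the span of the kernel is stable -/
theorem stab_WZ (hN : Nin ψ a b c) (h2 : (2 : F) ≠ 0) (hF : FixA7 ψ a b)
    (hC : ∀ h : Gh F, ad F h ∈ H → ∃ σ : Perm (Fin 9), Ind ψ h σ) : Stab (V F) H (WZ a b) := by
  intro h hh w hw
  obtain ⟨σ, hI⟩ := hC h hh
  obtain ⟨p, q, p', q', hA, hB⟩ := V_h hN h2 hF hI
  induction hw using Submodule.span_induction with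
  | zero => rw [map_zero]; exact Submodule.zero_mem _
  | add x y _ _ hx hy => rw [map_add]; exact Submodule.add_mem _ hx hy
  | smul r x _ hx => rw [map_smul]; exact Submodule.smul_mem _ _ hx
  | mem w hw =>
    obtain ⟨s, t, i, j, hz, rfl⟩ := hw
    have e : ∀ i j, V F h (s • a i j + t • b i j) = (s * p + t * p') • a (σ i) (σ j) + (s * q + t * q') • b (σ i) (σ j) := by
      intro i j
      rw [map_add, map_smul, map_smul, hA, hB]
      module
    refine Submodule.subset_span ⟨s * p + t * p', s * q + t * q', σ i, σ j, ?_, e i j⟩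
    intro i j k
    have h1 := hz (σ⁻¹ i) (σ⁻¹ j) (σ⁻¹ k)
    have h3 : V F h (s • sg a (σ⁻¹ i) (σ⁻¹ j) (σ⁻¹ k) + t • sg b (σ⁻¹ i) (σ⁻¹ j) (σ⁻¹ k)) =
        V F h (s • a (σ⁻¹ i) (σ⁻¹ j) + t • b (σ⁻¹ i) (σ⁻¹ j)) + V F h (s • a (σ⁻¹ j) (σ⁻¹ k) + t • b (σ⁻¹ j) (σ⁻¹ k)) +
          V F h (s • a (σ⁻¹ k) (σ⁻¹ i) + t • b (σ⁻¹ k) (σ⁻¹ i)) := by
      rw [← map_add, ← map_add]
      congr 1
      unfold sg
      module
    rw [h1, map_zero, e, e, e] at h3
    have ei : ∀ i, σ (σ⁻¹ i) = i := fun i => σ.apply_symm_apply i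
    rw [ei, ei, ei] at h3
    rw [h3]
    unfold sg
    module

/-- if all the cyclic sums vanish, the 14-dimensional subspace is stable -/
theorem stab_V7 (hN : Nin ψ a b c) (h2 : (2 : F) ≠ 0) (hF : FixA7 ψ a b)
    (hC : ∀ h : Gh F, ad F h ∈ H → ∃ σ : Perm (Fin 9), Ind ψ h σ) (hall : ∀ s t, Zc a b s t) :
    Stab (V F) H (Submodule.span F (Set.range (fun i : Fin 8 => a i.castSucc 8) ∪
      Set.range (fun i : Fin 8 => b i.castSucc 8))) := by
  set W := Submodule.span F (Set.range (fun i : Fin 8 => a i.castSucc 8) ∪ Set.range (fun i : Fin 8 => b i.castSucc 8)) with hW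
  have ha8 : ∀ i, a i 8 ∈ W := by
    intro i
    induction i using Fin.lastCases with
    | last =>
      have : a (Fin.last 8) 8 = 0 := hN.diagA h2 8
      rw [this]; exact Submodule.zero_mem _
    | cast i => exact Submodule.subset_span (Or.inl ⟨i, rfl⟩)
  have hb8 : ∀ i, b i 8 ∈ W := by
    intro i
    induction i using Fin.lastCases with
    | last =>
      have : b (Fin.last 8) 8 = 0 := hN.diagB h2 8
      rw [this]; exact Submodule.zero_mem _
    | cast i => exact Submodule.subset_span (Or.inr ⟨i, rfl⟩)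
  have ha : ∀ i j, a i j ∈ W := by
    intro i j
    have h1 := hall 1 0 i j 8
    rw [one_smul, zero_smul, add_zero] at h1
    unfold sg at h1
    rw [hN.antiA i 8] at h1
    have h3 : a i j = a i 8 - a j 8 := by
      rw [eq_sub_iff_add_eq, ← sub_eq_zero, ← h1]; abel
    rw [h3]; exact Submodule.sub_mem _ (ha8 i) (ha8 j)
  have hb : ∀ i j, b i j ∈ W := by
    intro i j
    have h1 := hall 0 1 i j 8
    rw [one_smul, zero_smul, zero_add] at h1
    unfold sg at h1
    rw [hN.antiB i 8] at h1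
    have h3 : b i j = b i 8 - b j 8 := by
      rw [eq_sub_iff_add_eq, ← sub_eq_zero, ← h1]; abel
    rw [h3]; exact Submodule.sub_mem _ (hb8 i) (hb8 j)
  intro h hh w hw
  obtain ⟨σ, hI⟩ := hC h hh
  obtain ⟨p, q, p', q', hA, hB⟩ := V_h hN h2 hF hI
  induction hw using Submodule.span_induction with
  | zero => rw [map_zero]; exact Submodule.zero_mem _
  | add x y _ _ hx hy => rw [map_add]; exact Submodule.add_mem _ hx hy
  | smul r x _ hx => rw [map_smul]; exact Submodule.smul_mem _ _ hx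
  | mem w hw =>
    rcases hw with ⟨i, rfl⟩ | ⟨i, rfl⟩
    · show V F h (a i.castSucc 8) ∈ W
      rw [hA]
      exact Submodule.add_mem _ (Submodule.smul_mem _ _ (ha _ _)) (Submodule.smul_mem _ _ (hb _ _))
    · show V F h (b i.castSucc 8) ∈ W
      rw [hB]
      exact Submodule.add_mem _ (Submodule.smul_mem _ _ (ha _ _)) (Submodule.smul_mem _ _ (hb _ _))

end

end Cfsg.Agent.R2.T1.P3
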