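import Cfsg.Agent.R2.T1.P3.Q3

/-!
# S5771, box P3, step Q3: the contradiction for `n = 8` (helper3)

* `no_eight` : the configuration `Sev` with `PQ` is impossible for a maximal subgroup of type `A_8` in characteristic
  `p ≠ 2, 5`.
-/

set_option autoImplicit false

namespace Cfsg.Agent.R2.T1.P3

open Cfsg Cfsg.Lie Module Matrix
open Cfsg.Agent.R2.T1 Cfsg.Agent.R2.T1.Mu Cfsg.Agent.R2.PX
open Cfsg.Agent.H943.E7V.Block (D1 rho)
open Cfsg.Agent.H952.F4 (MaxAlt)
open Equiv

universe u

section
variable {F K : Type u} [Field F] [Field K] (f : F →+* K) {ψ : ↥(alternatingGroup (Fin 8)) →* Gh F}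
  {φ : ↥(alternatingGroup (Fin 8)) →* ↥(chevE7.group F)} {a b : Fin 8 → D1 → F} {c : F}

theorem exists_alpha [Finite F] [IsAlgClosed K] {p : ℕ} [hp : Fact p.Prime] [CharP F p] (hp2 : p ≠ 2)
    {H : Subgroup ↥(chevE7.group F)} (hM : MaxAlt H 8 φ) (hL : Lift φ ψ) (hs : Sev ψ a b c)
    (hS : Stab (V F) H (Submodule.span F (Set.range a ∪ Set.range b))) (hP : PQ f a b) {ξ : Fin 8 → F}
    (h0 : 8 * ∑ i, ξ i ^ 2 = (∑ i, ξ i) ^ 2) (hξ : ∃ k, 8 * ξ k - ∑ i, ξ i ≠ 0) :
    ∃ α : ↥(alternatingGroup (Fin 8)), α ≠ 1 ∧ α ^ p = 1 ∧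
      ∀ g : ↥(alternatingGroup (Fin 8)), (∀ i, ξ ((g : Perm (Fin 8)) i) = ξ i) → g * α = α * g := by
  have h2 : (2 : F) ≠ 0 := by
    intro h
    have h3 : ((2 : ℕ) : F) = 0 := by exact_mod_cast h
    rw [CharP.cast_eq_zero_iff F p] at h3
    exact hp2 ((Nat.prime_dvd_prime_iff_eq hp.out Nat.prime_two).1 h3)
  obtain ⟨z, hzH, hzp, hz1, hzc⟩ := exists_z f h2 hM.coatom hs hS hP h0 hξ (p := p)
  have hodd : p % 2 = 1 := by
    rcases Nat.Prime.eq_two_or_odd hp.out with h | h
    · exact absurd h hp2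
    · exact h
  have hadp : ad F z ^ p = 1 := by rw [← map_pow, hzp, map_one]
  have h4 : ad F z = (ad F z * ad F z) ^ ((p + 1) / 2) := by
    rw [← pow_two, ← pow_mul, show 2 * ((p + 1) / 2) = p + 1 by omega, pow_succ, hadp, one_mul]
  have h5 : ad F z ∈ φ.range := by
    rw [h4]; exact pow_mem (hM.sq _ hzH) _
  obtain ⟨α, hα⟩ := h5
  refine ⟨α, ?_, ?_, ?_⟩
  · rintro rfl
    exact hz1 (by rw [← hα, map_one])
  · apply hM.inj
    rw [map_pow, hα, hadp, map_one]
  · intro g hg
    apply hM.inj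
    rw [map_mul, map_mul, hα, ← hL g, ← map_mul, ← map_mul, hzc g hg]

/-- three-cycles -/
def cy (x y z : Fin 8) (h : x ≠ y ∧ y ≠ z) : ↥(alternatingGroup (Fin 8)) :=
  ⟨swap x y * swap y z, by
    rw [Perm.mem_alternatingGroup, Perm.sign_mul, Perm.sign_swap h.1, Perm.sign_swap h.2]; rfl⟩

theorem comm_apply {α g : ↥(alternatingGroup (Fin 8))} (h : g * α = α * g) (i : Fin 8) :
    (g : Perm (Fin 8)) ((α : Perm (Fin 8)) i) = (α : Perm (Fin 8)) ((g : Perm (Fin 8)) i) := by
  have h1 := congrArg (fun x : ↥(alternatingGroup (Fin 8)) => (x : Perm (Fin 8)) i) h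
  exact h1

theorem fix_of {α : ↥(alternatingGroup (Fin 8))} (i : Fin 8) (g1 g2 g3 : ↥(alternatingGroup (Fin 8)))
    (h1 : g1 * α = α * g1) (h2 : g2 * α = α * g2) (h3 : g3 * α = α * g3) (e1 : (g1 : Perm (Fin 8)) i = i)
    (e2 : (g2 : Perm (Fin 8)) i = i) (e3 : (g3 : Perm (Fin 8)) i ≠ i)
    (hd : ∀ x : Fin 8, (g1 : Perm (Fin 8)) x = x → (g2 : Perm (Fin 8)) x = x → x = i ∨ (g3 : Perm (Fin 8)) x = x) :
    (α : Perm (Fin 8)) i = i := by
  have k1 := comm_apply h1 i
  have k2 := comm_apply h2 i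
  have k3 := comm_apply h3 i
  rw [e1] at k1
  rw [e2] at k2
  rcases hd _ k1 k2 with h | h
  · exact h
  · rw [h] at k3
    exact absurd ((α : Perm (Fin 8)).injective k3).symm e3

/-- `p = 3` -/
theorem alpha_three {α : ↥(alternatingGroup (Fin 8))}
    (h : ∀ g : ↥(alternatingGroup (Fin 8)), (g : Perm (Fin 8)) 6 = 6 → (g : Perm (Fin 8)) 7 = 7 → g * α = α * g) :
    α = 1 := by
  have f0 := fix_of (α := α) 0 (cy 1 2 3 (by decide)) (cy 3 4 5 (by decide)) (cy 0 1 2 (by decide))
    (h _ (by decide) (by decide)) (h _ (by decide) (by decide)) (h _ (by decide) (by decide)) (by decide) (by decide)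
    (by decide) (by decide)
  have f1 := fix_of (α := α) 1 (cy 0 2 3 (by decide)) (cy 3 4 5 (by decide)) (cy 0 1 2 (by decide))
    (h _ (by decide) (by decide)) (h _ (by decide) (by decide)) (h _ (by decide) (by decide)) (by decide) (by decide)
    (by decide) (by decide)
  have f2 := fix_of (α := α) 2 (cy 0 1 3 (by decide)) (cy 3 4 5 (by decide)) (cy 0 1 2 (by decide))
    (h _ (by decide) (by decide)) (h _ (by decide) (by decide)) (h _ (by decide) (by decide)) (by decide) (by decide)
    (by decide) (by decide)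
  have f3 := fix_of (α := α) 3 (cy 0 1 2 (by decide)) (cy 2 4 5 (by decide)) (cy 3 4 5 (by decide))
    (h _ (by decide) (by decide)) (h _ (by decide) (by decide)) (h _ (by decide) (by decide)) (by decide) (by decide)
    (by decide) (by decide)
  have f4 := fix_of (α := α) 4 (cy 0 1 2 (by decide)) (cy 2 3 5 (by decide)) (cy 3 4 5 (by decide))
    (h _ (by decide) (by decide)) (h _ (by decide) (by decide)) (h _ (by decide) (by decide)) (by decide) (by decide)
    (by decide) (by decide)
  have f5 := fix_of (α := α) 5 (cy 0 1 2 (by decide)) (cy 2 3 4 (by decide)) (cy 3 4 5 (by decide))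
    (h _ (by decide) (by decide)) (h _ (by decide) (by decide)) (h _ (by decide) (by decide)) (by decide) (by decide)
    (by decide) (by decide)
  have hinj := (α : Perm (Fin 8)).injective
  have n6 : ∀ j : Fin 8, (α : Perm (Fin 8)) j = j → j ≠ 6 → (α : Perm (Fin 8)) 6 ≠ j := fun j hj hne he =>
    hne (hinj (hj.trans he.symm))
  have n7 : ∀ j : Fin 8, (α : Perm (Fin 8)) j = j → j ≠ 7 → (α : Perm (Fin 8)) 7 ≠ j := fun j hj hne he =>
    hne (hinj (hj.trans he.symm))
  have m60 := n6 0 f0 (by decide)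
  have m61 := n6 1 f1 (by decide)
  have m62 := n6 2 f2 (by decide)
  have m63 := n6 3 f3 (by decide)
  have m64 := n6 4 f4 (by decide)
  have m65 := n6 5 f5 (by decide)
  have m70 := n7 0 f0 (by decide)
  have m71 := n7 1 f1 (by decide)
  have m72 := n7 2 f2 (by decide)
  have m73 := n7 3 f3 (by decide)
  have m74 := n7 4 f4 (by decide)
  have m75 := n7 5 f5 (by decide)
  have m67 : (α : Perm (Fin 8)) 6 ≠ (α : Perm (Fin 8)) 7 := fun h => absurd (hinj h) (by decide)
  have c67 : ((α : Perm (Fin 8)) 6 = 6 ∧ (α : Perm (Fin 8)) 7 = 7) ∨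
      ((α : Perm (Fin 8)) 6 = 7 ∧ (α : Perm (Fin 8)) 7 = 6) := by
    generalize (α : Perm (Fin 8)) 6 = x at *
    generalize (α : Perm (Fin 8)) 7 = y at *
    clear f0 f1 f2 f3 f4 f5 hinj n6 n7 h
    clear α
    revert m60 m61 m62 m63 m64 m65 m70 m71 m72 m73 m74 m75 m67
    revert x y
    decide
  rcases c67 with ⟨h6, h7⟩ | ⟨h6, h7⟩
  · apply Subtype.ext
    ext i
    fin_cases i
    · exact congrArg Fin.val f0
    · exact congrArg Fin.val f1
    · exact congrArg Fin.val f2
    · exact congrArg Fin.val f3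
    · exact congrArg Fin.val f4
    · exact congrArg Fin.val f5
    · exact congrArg Fin.val h6
    · exact congrArg Fin.val h7
  · exfalso
    have h8 : (α : Perm (Fin 8)) = swap 6 7 := by
      ext i
      fin_cases i
      · exact congrArg Fin.val f0
      · exact congrArg Fin.val f1
      · exact congrArg Fin.val f2
      · exact congrArg Fin.val f3
      · exact congrArg Fin.val f4
      · exact congrArg Fin.val f5
      · exact congrArg Fin.val h6
      · exact congrArg Fin.val h7
    have h9 := Perm.mem_alternatingGroup.1 α.2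
    rw [h8, Perm.sign_swap (by decide)] at h9
    exact absurd h9 (by decide)

/-- `p = 7` -/
theorem alpha_seven {α : ↥(alternatingGroup (Fin 8))} (h7 : α ^ 7 = 1)
    (h : ∀ g : ↥(alternatingGroup (Fin 8)), (g : Perm (Fin 8)) 0 = 0 → (g : Perm (Fin 8)) 1 = 1 →
      (g : Perm (Fin 8)) 2 = 2 → g * α = α * g) : α = 1 := by
  have f3 := fix_of (α := α) 3 (cy 4 5 6 (by decide)) (cy 5 6 7 (by decide)) (cy 3 4 5 (by decide))
    (h _ (by decide) (by decide) (by decide)) (h _ (by decide) (by decide) (by decide))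
    (h _ (by decide) (by decide) (by decide)) (by decide) (by decide) (by decide) (by decide)
  have f4 := fix_of (α := α) 4 (cy 3 5 6 (by decide)) (cy 5 6 7 (by decide)) (cy 3 4 5 (by decide))
    (h _ (by decide) (by decide) (by decide)) (h _ (by decide) (by decide) (by decide))
    (h _ (by decide) (by decide) (by decide)) (by decide) (by decide) (by decide) (by decide)
  have f5 := fix_of (α := α) 5 (cy 3 4 6 (by decide)) (cy 4 6 7 (by decide)) (cy 3 4 5 (by decide))
    (h _ (by decide) (by decide) (by decide)) (h _ (by decide) (by decide) (by decide))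
    (h _ (by decide) (by decide) (by decide)) (by decide) (by decide) (by decide) (by decide)
  have f6 := fix_of (α := α) 6 (cy 3 4 5 (by decide)) (cy 4 5 7 (by decide)) (cy 4 5 6 (by decide))
    (h _ (by decide) (by decide) (by decide)) (h _ (by decide) (by decide) (by decide))
    (h _ (by decide) (by decide) (by decide)) (by decide) (by decide) (by decide) (by decide)
  have f7 := fix_of (α := α) 7 (cy 3 4 5 (by decide)) (cy 4 5 6 (by decide)) (cy 4 5 7 (by decide))
    (h _ (by decide) (by decide) (by decide)) (h _ (by decide) (by decide) (by decide))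
    (h _ (by decide) (by decide) (by decide)) (by decide) (by decide) (by decide) (by decide)
  have hinj := (α : Perm (Fin 8)).injective
  have n : ∀ i j : Fin 8, (α : Perm (Fin 8)) j = j → j ≠ i → (α : Perm (Fin 8)) i ≠ j := fun i j hj hne he =>
    hne (hinj (hj.trans he.symm))
  have e7 : ∀ i : Fin 8, (α : Perm (Fin 8)) ((α : Perm (Fin 8)) ((α : Perm (Fin 8)) ((α : Perm (Fin 8))
      ((α : Perm (Fin 8)) ((α : Perm (Fin 8)) ((α : Perm (Fin 8)) i)))))) = i := by
    intro i
    have h8 := congrArg (fun x : ↥(alternatingGroup (Fin 8)) => (x : Perm (Fin 8)) i) h7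
    exact h8
  have r : ∀ i : Fin 8, i = 0 ∨ i = 1 ∨ i = 2 → (α : Perm (Fin 8)) i = 0 ∨ (α : Perm (Fin 8)) i = 1 ∨ (α : Perm (Fin 8)) i = 2 := by
    intro i hi
    have m3 := n i 3 f3 (by rcases hi with rfl | rfl | rfl <;> decide)
    have m4 := n i 4 f4 (by rcases hi with rfl | rfl | rfl <;> decide)
    have m5 := n i 5 f5 (by rcases hi with rfl | rfl | rfl <;> decide)
    have m6 := n i 6 f6 (by rcases hi with rfl | rfl | rfl <;> decide)
    have m7 := n i 7 f7 (by rcases hi with rfl | rfl | rfl <;> decide)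
    generalize (α : Perm (Fin 8)) i = x at *
    clear hi f3 f4 f5 f6 f7 hinj n h e7 h7
    have hx := x.2
    simp only [Fin.ext_iff, ne_eq] at m3 m4 m5 m6 m7 ⊢
    have c0 : ((0 : Fin 8) : ℕ) = 0 := rfl
    have c1 : ((1 : Fin 8) : ℕ) = 1 := rfl
    have c2 : ((2 : Fin 8) : ℕ) = 2 := rfl
    have c3 : ((3 : Fin 8) : ℕ) = 3 := rfl
    have c4 : ((4 : Fin 8) : ℕ) = 4 := rfl
    have c5 : ((5 : Fin 8) : ℕ) = 5 := rfl
    have c6 : ((6 : Fin 8) : ℕ) = 6 := rfl
    have c7 : ((7 : Fin 8) : ℕ) = 7 := rfl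
    omega
  have d01 : (α : Perm (Fin 8)) 0 ≠ (α : Perm (Fin 8)) 1 := fun h => absurd (hinj h) (by decide)
  have d02 : (α : Perm (Fin 8)) 0 ≠ (α : Perm (Fin 8)) 2 := fun h => absurd (hinj h) (by decide)
  have d12 : (α : Perm (Fin 8)) 1 ≠ (α : Perm (Fin 8)) 2 := fun h => absurd (hinj h) (by decide)
  have e0 := e7 0
  have e1 := e7 1
  have e2 := e7 2
  have fin : (α : Perm (Fin 8)) 0 = 0 ∧ (α : Perm (Fin 8)) 1 = 1 ∧ (α : Perm (Fin 8)) 2 = 2 := by
    rcases r 0 (Or.inl rfl) with h0 | h0 | h0 <;> rcases r 1 (Or.inr (Or.inl rfl)) with h1 | h1 | h1 <;>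
      rcases r 2 (Or.inr (Or.inr rfl)) with h2 | h2 | h2 <;>
      first
        | exact ⟨h0, h1, h2⟩
        | exact absurd (h0.trans h1.symm) d01
        | exact absurd (h0.trans h2.symm) d02
        | exact absurd (h1.trans h2.symm) d12
        | (exfalso; simp only [h0, h1, h2] at e0; exact absurd e0 (by decide))
        | (exfalso; simp only [h0, h1, h2] at e1; exact absurd e1 (by decide))
  apply Subtype.ext
  ext i
  fin_cases i
  · exact congrArg Fin.val fin.1
  · exact congrArg Fin.val fin.2.1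
  · exact congrArg Fin.val fin.2.2
  · exact congrArg Fin.val f3
  · exact congrArg Fin.val f4
  · exact congrArg Fin.val f5
  · exact congrArg Fin.val f6
  · exact congrArg Fin.val f7

/-- **the contradiction for `n = 8`** -/
theorem no_eight [Finite F] [IsAlgClosed K] {p : ℕ} [hp : Fact p.Prime] [CharP F p] (hp2 : p ≠ 2) (hp5 : p ≠ 5)
    {H : Subgroup ↥(chevE7.group F)} (hM : MaxAlt H 8 φ) (hL : Lift φ ψ) (hs : Sev ψ a b c)
    (hS : Stab (V F) H (Submodule.span F (Set.range a ∪ Set.range b))) (hP : PQ f a b) : False := by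
  have hcast : ∀ n : ℕ, p ∣ n → (n : F) = 0 := fun n hn => (CharP.cast_eq_zero_iff F p n).2 hn
  by_cases h3 : p = 3
  · subst h3
    have h30 : (3 : F) = 0 := by exact_mod_cast hcast 3 (dvd_refl 3)
    obtain ⟨α, h1, -, hc⟩ := exists_alpha f (by decide) hM hL hs hS hP
      (ξ := fun i => if i = 6 ∨ i = 7 then 1 else 0) (by
        simp only [Fin.sum_univ_eight]
        simp
        linear_combination 4 * h30) ⟨0, by
        simp only [Fin.sum_univ_eight]
        simp
        intro h
        apply one_ne_zero (α := F)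
        linear_combination h30 + h⟩
    refine h1 (alpha_three fun g h6 h7 => hc g fun i => ?_)
    by_cases hi : i = 6 ∨ i = 7
    · rcases hi with rfl | rfl
      · rw [h6]
      · rw [h7]
    · have h8 : ¬ ((g : Perm (Fin 8)) i = 6 ∨ (g : Perm (Fin 8)) i = 7) := by
        rintro (h | h)
        · exact hi (Or.inl ((g : Perm (Fin 8)).injective (h.trans h6.symm)))
        · exact hi (Or.inr ((g : Perm (Fin 8)).injective (h.trans h7.symm)))
      rw [if_neg hi, if_neg h8]
  by_cases h7 : p = 7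
  · subst h7
    have h70 : (7 : F) = 0 := by exact_mod_cast hcast 7 (dvd_refl 7)
    obtain ⟨α, h1, h77, hc⟩ := exists_alpha f (by decide) hM hL hs hS hP
      (ξ := fun i => if i = 0 then 1 else if i = 1 then 2 else if i = 2 then 4 else 0) (by
        simp only [Fin.sum_univ_eight]
        simp
        linear_combination 17 * h70) ⟨0, by
        simp only [Fin.sum_univ_eight]
        simp
        intro h
        apply one_ne_zero (α := F)
        linear_combination h⟩
    refine h1 (alpha_seven h77 fun g e0 e1 e2 => hc g fun i => ?_)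
    by_cases h0 : i = 0
    · subst h0; rw [e0]
    by_cases h1 : i = 1
    · subst h1; rw [e1]
    by_cases h2 : i = 2
    · subst h2; rw [e2]
    have k0 : (g : Perm (Fin 8)) i ≠ 0 := fun h => h0 ((g : Perm (Fin 8)).injective (h.trans e0.symm))
    have k1 : (g : Perm (Fin 8)) i ≠ 1 := fun h => h1 ((g : Perm (Fin 8)).injective (h.trans e1.symm))
    have k2 : (g : Perm (Fin 8)) i ≠ 2 := fun h => h2 ((g : Perm (Fin 8)).injective (h.trans e2.symm))
    rw [if_neg h0, if_neg h1, if_neg h2, if_neg k0, if_neg k1, if_neg k2]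
  · -- `p ≥ 11`
    obtain ⟨x, y, hxy⟩ := CharP.sq_add_sq F p (-1)
    have h2 : (2 : F) ≠ 0 := by
      intro h
      have h3 : ((2 : ℕ) : F) = 0 := by exact_mod_cast h
      rw [CharP.cast_eq_zero_iff F p] at h3
      exact hp2 ((Nat.prime_dvd_prime_iff_eq hp.out Nat.prime_two).1 h3)
    have h8 : (8 : F) ≠ 0 := by
      have : (8 : F) = 2 * 2 * 2 := by norm_num
      rw [this]; exact mul_ne_zero (mul_ne_zero h2 h2) h2
    obtain ⟨α, h1, hα, -⟩ := exists_alpha f hp2 hM hL hs hS hP
      (ξ := ![1, -1, x, -x, y, -y, 0, 0]) (by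
        simp only [Fin.sum_univ_eight]
        simp
        push_cast at hxy
        refine Or.inr ?_
        linear_combination 2 * hxy) ⟨0, by
        simp only [Fin.sum_univ_eight]
        simp
        exact h8⟩
    have hα' : (α : Perm (Fin 8)) ^ p = 1 := congrArg Subtype.val hα
    have h1' : (α : Perm (Fin 8)) ≠ 1 := fun h => h1 (Subtype.ext h)
    have h9 : orderOf (α : Perm (Fin 8)) = p := orderOf_eq_prime hα' h1'
    have h10 : p ∣ (8).factorial := by
      rw [← h9]
      refine (orderOf_dvd_natCard (α : Perm (Fin 8))).trans ?_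
      rw [Nat.card_perm, Nat.card_fin]
    have h11 := (Nat.Prime.dvd_factorial hp.out).1 h10
    have h12 := hp.out.two_le
    have h13 := hp.out
    interval_cases p
    · exact hp2 rfl
    · exact h3 rfl
    · exact absurd h13 (by decide)
    · exact hp5 rfl
    · exact absurd h13 (by decide)
    · exact h7 rfl
    · exact absurd h13 (by decide)

end

end Cfsg.Agent.R2.T1.P3
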