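import Cfsg.Agent.R2.T1.P3.N4c
import Cfsg.Agent.R2.T1.P3.Q3e
import Cfsg.Agent.R2.T1.P3.Cj
import Cfsg.Agent.R2.T1.Mu2.Ts
import Cfsg.Agent.R2.T1.Mu.Sing

/-!
# S5771, box P3, `p = 3`, `n = 9` (helper3), part 4: the contradiction
-/

set_option autoImplicit false

namespace Cfsg.Agent.R2.T1.P3

open Cfsg Cfsg.Lie Module Matrix
open Cfsg.Agent.R2.T1 Cfsg.Agent.R2.T1.Mu Cfsg.Agent.R2.PX
open Cfsg.Agent.H943.E7V.Block (D1 rho)
open Cfsg.Agent.H952.F4 (MaxAlt)
open Equiv

universe u

theorem comm_apply9 {α g : ↥(alternatingGroup (Fin 9))} (h : g * α = α * g) (i : Fin 9) :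
    (g : Perm (Fin 9)) ((α : Perm (Fin 9)) i) = (α : Perm (Fin 9)) ((g : Perm (Fin 9)) i) := by
  have h1 := congrArg (fun x : ↥(alternatingGroup (Fin 9)) => (x : Perm (Fin 9)) i) h
  exact h1

theorem fix_of9 {α : ↥(alternatingGroup (Fin 9))} (i : Fin 8) (g1 g2 g3 : ↥(alternatingGroup (Fin 8)))
    (h1 : res9 g1 * α = α * res9 g1) (h2 : res9 g2 * α = α * res9 g2) (h3 : res9 g3 * α = α * res9 g3)
    (e1 : (g1 : Perm (Fin 8)) i = i) (e2 : (g2 : Perm (Fin 8)) i = i) (e3 : (g3 : Perm (Fin 8)) i ≠ i)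
    (hd : ∀ x : Fin 8, (g1 : Perm (Fin 8)) x = x → (g2 : Perm (Fin 8)) x = x → x = i ∨ (g3 : Perm (Fin 8)) x = x) :
    (α : Perm (Fin 9)) i.castSucc = i.castSucc := by
  have k1 := comm_apply9 h1 i.castSucc
  have k2 := comm_apply9 h2 i.castSucc
  have k3 := comm_apply9 h3 i.castSucc
  rw [res9_cast, e1] at k1
  rw [res9_cast, e2] at k2
  have hinj : ∀ x y : Fin 9, (α : Perm (Fin 9)) x = (α : Perm (Fin 9)) y → x = y := fun x y h =>
    (α : Perm (Fin 9)).injective h
  obtain ⟨y, hy⟩ : ∃ y, (α : Perm (Fin 9)) i.castSucc = y := ⟨_, rfl⟩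
  rw [hy] at k1 k2 k3 ⊢
  have hfix : (res9 g3 : Perm (Fin 9)) y = y → False := by
    intro h
    rw [h, ← hy, res9_cast] at k3
    exact e3 (Fin.castSucc_injective _ (hinj _ _ k3)).symm
  induction y using Fin.lastCases with
  | last => exact absurd (res9_last g3) hfix
  | cast y =>
    rw [res9_cast] at k1 k2
    rcases hd y (Fin.castSucc_injective _ k1) (Fin.castSucc_injective _ k2) with h | h
    · rw [h]
    · exact absurd (by rw [res9_cast, h]) hfix

/-- `(0 1)(6 7)` -/
def dtr : ↥(alternatingGroup (Fin 8)) := ⟨swap 0 1 * swap 6 7, by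
  rw [Perm.mem_alternatingGroup, Perm.sign_mul, Perm.sign_swap (by decide), Perm.sign_swap (by decide)]; rfl⟩

/-- the centraliser of `(S_6 × S_2) ∩ A_8` in `A_9` is trivial -/
theorem alpha_nine {α : ↥(alternatingGroup (Fin 9))}
    (h : ∀ g : ↥(alternatingGroup (Fin 8)), (∀ i : Fin 8, ((g : Perm (Fin 8)) i = 6 ∨ (g : Perm (Fin 8)) i = 7) ↔
      (i = 6 ∨ i = 7)) → res9 g * α = α * res9 g) : α = 1 := by
  have f0 := fix_of9 (α := α) 0 (cy 1 2 3 (by decide)) (cy 3 4 5 (by decide)) (cy 0 1 2 (by decide))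
    (h _ (by decide)) (h _ (by decide)) (h _ (by decide)) (by decide) (by decide)
    (by decide) (by decide)
  have f1 := fix_of9 (α := α) 1 (cy 0 2 3 (by decide)) (cy 3 4 5 (by decide)) (cy 0 1 2 (by decide))
    (h _ (by decide)) (h _ (by decide)) (h _ (by decide)) (by decide) (by decide)
    (by decide) (by decide)
  have f2 := fix_of9 (α := α) 2 (cy 0 1 3 (by decide)) (cy 3 4 5 (by decide)) (cy 0 1 2 (by decide))
    (h _ (by decide)) (h _ (by decide)) (h _ (by decide)) (by decide) (by decide)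
    (by decide) (by decide)
  have f3 := fix_of9 (α := α) 3 (cy 0 1 2 (by decide)) (cy 2 4 5 (by decide)) (cy 3 4 5 (by decide))
    (h _ (by decide)) (h _ (by decide)) (h _ (by decide)) (by decide) (by decide)
    (by decide) (by decide)
  have f4 := fix_of9 (α := α) 4 (cy 0 1 2 (by decide)) (cy 2 3 5 (by decide)) (cy 3 4 5 (by decide))
    (h _ (by decide)) (h _ (by decide)) (h _ (by decide)) (by decide) (by decide)
    (by decide) (by decide)
  have f5 := fix_of9 (α := α) 5 (cy 0 1 2 (by decide)) (cy 2 3 4 (by decide)) (cy 3 4 5 (by decide))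
    (h _ (by decide)) (h _ (by decide)) (h _ (by decide)) (by decide) (by decide)
    (by decide) (by decide)
  have hinj : ∀ x y : Fin 9, (α : Perm (Fin 9)) x = (α : Perm (Fin 9)) y → x = y := fun x y h =>
    (α : Perm (Fin 9)).injective h
  -- the last point
  have f8 : (α : Perm (Fin 9)) 8 = 8 := by
    have k := comm_apply9 (h dtr (by decide)) 8
    rw [res9_last] at k
    obtain ⟨y, hy⟩ : ∃ y, (α : Perm (Fin 9)) 8 = y := ⟨_, rfl⟩
    rw [hy] at k ⊢
    induction y using Fin.lastCases with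
    | last => rfl
    | cast y =>
      exfalso
      rw [res9_cast] at k
      have k1 := Fin.castSucc_injective _ k
      have k2 : y = 2 ∨ y = 3 ∨ y = 4 ∨ y = 5 := by
        clear hy k
        revert y
        decide
      have k3 : (α : Perm (Fin 9)) y.castSucc = y.castSucc := by
        rcases k2 with rfl | rfl | rfl | rfl
        · exact f2
        · exact f3
        · exact f4
        · exact f5
      have k4 := hinj _ _ (hy.trans k3.symm)
      rcases k2 with rfl | rfl | rfl | rfl <;> exact absurd k4 (by decide)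
  have n6 : ∀ j : Fin 9, (α : Perm (Fin 9)) j = j → j ≠ 6 → (α : Perm (Fin 9)) 6 ≠ j := fun j hj hne he =>
    hne (hinj _ _ (hj.trans he.symm))
  have n7 : ∀ j : Fin 9, (α : Perm (Fin 9)) j = j → j ≠ 7 → (α : Perm (Fin 9)) 7 ≠ j := fun j hj hne he =>
    hne (hinj _ _ (hj.trans he.symm))
  have g0 : (α : Perm (Fin 9)) 0 = 0 := f0
  have g1 : (α : Perm (Fin 9)) 1 = 1 := f1
  have g2 : (α : Perm (Fin 9)) 2 = 2 := f2
  have g3 : (α : Perm (Fin 9)) 3 = 3 := f3
  have g4 : (α : Perm (Fin 9)) 4 = 4 := f4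
  have g5 : (α : Perm (Fin 9)) 5 = 5 := f5
  have m60 := n6 0 g0 (by decide)
  have m61 := n6 1 g1 (by decide)
  have m62 := n6 2 g2 (by decide)
  have m63 := n6 3 g3 (by decide)
  have m64 := n6 4 g4 (by decide)
  have m65 := n6 5 g5 (by decide)
  have m68 := n6 8 f8 (by decide)
  have m70 := n7 0 g0 (by decide)
  have m71 := n7 1 g1 (by decide)
  have m72 := n7 2 g2 (by decide)
  have m73 := n7 3 g3 (by decide)
  have m74 := n7 4 g4 (by decide)
  have m75 := n7 5 g5 (by decide)
  have m78 := n7 8 f8 (by decide)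
  have m67 : (α : Perm (Fin 9)) 6 ≠ (α : Perm (Fin 9)) 7 := fun h => absurd (hinj _ _ h) (by decide)
  have c67 : ((α : Perm (Fin 9)) 6 = 6 ∧ (α : Perm (Fin 9)) 7 = 7) ∨
      ((α : Perm (Fin 9)) 6 = 7 ∧ (α : Perm (Fin 9)) 7 = 6) := by
    generalize (α : Perm (Fin 9)) 6 = x at *
    generalize (α : Perm (Fin 9)) 7 = y at *
    clear f0 f1 f2 f3 f4 f5 f8 g0 g1 g2 g3 g4 g5 hinj n6 n7 h
    clear α
    have hx := x.2
    have hy := y.2
    simp only [Fin.ext_iff, ne_eq] at m60 m61 m62 m63 m64 m65 m68 m70 m71 m72 m73 m74 m75 m78 m67 ⊢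
    have c0 : ((0 : Fin 9) : ℕ) = 0 := rfl
    have c1 : ((1 : Fin 9) : ℕ) = 1 := rfl
    have c2 : ((2 : Fin 9) : ℕ) = 2 := rfl
    have c3 : ((3 : Fin 9) : ℕ) = 3 := rfl
    have c4 : ((4 : Fin 9) : ℕ) = 4 := rfl
    have c5 : ((5 : Fin 9) : ℕ) = 5 := rfl
    have c6 : ((6 : Fin 9) : ℕ) = 6 := rfl
    have c7 : ((7 : Fin 9) : ℕ) = 7 := rfl
    have c8 : ((8 : Fin 9) : ℕ) = 8 := rfl
    omega
  rcases c67 with ⟨h6, h7⟩ | ⟨h6, h7⟩
  · apply Subtype.ext
    ext i
    fin_cases i
    · exact congrArg Fin.val g0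
    · exact congrArg Fin.val g1
    · exact congrArg Fin.val g2
    · exact congrArg Fin.val g3
    · exact congrArg Fin.val g4
    · exact congrArg Fin.val g5
    · exact congrArg Fin.val h6
    · exact congrArg Fin.val h7
    · exact congrArg Fin.val f8
  · exfalso
    have h8 : (α : Perm (Fin 9)) = swap 6 7 := by
      ext i
      fin_cases i
      · exact congrArg Fin.val g0
      · exact congrArg Fin.val g1
      · exact congrArg Fin.val g2
      · exact congrArg Fin.val g3
      · exact congrArg Fin.val g4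
      · exact congrArg Fin.val g5
      · exact congrArg Fin.val h6
      · exact congrArg Fin.val h7
      · exact congrArg Fin.val f8
    have h9 := Perm.mem_alternatingGroup.1 α.2
    rw [h8, Perm.sign_swap (by decide)] at h9
    exact absurd h9 (by decide)

section
variable {F K : Type u} [Field F] [Field K] (f : F →+* K) {ψ : ↥(alternatingGroup (Fin 9)) →* Gh F}
  {φ : ↥(alternatingGroup (Fin 9)) →* ↥(chevE7.group F)} {a b : Fin 9 → Fin 9 → D1 → F} {c : F}

/-- the case of vanishing cyclic sums -/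
theorem no_all [Finite F] [IsAlgClosed K] [CharP F 3] {H : Subgroup ↥(chevE7.group F)} (hM : MaxAlt H 9 φ)
    (hL : Lift φ ψ) (hN : Nin ψ a b c) (hF : FixA7 ψ a b)
    (hP : PQ f (fun i : Fin 8 => a i.castSucc 8) (fun i : Fin 8 => b i.castSucc 8))
    (hall : ∀ s t, Zc a b s t) : False := by
  have h30 : (3 : F) = 0 := by exact_mod_cast CharP.cast_eq_zero F 3
  have h2 : (2 : F) ≠ 0 := by
    intro h
    apply one_ne_zero (α := F)
    linear_combination h30 - h
  have hs := hN.sev h2 h30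
  have hC : ∀ h : Gh F, ad F h ∈ H → ∃ σ : Perm (Fin 9), Ind ψ h σ := fun h hh =>
    conj_psi (by decide) hM hL hh
  have hS := stab_V7 hN h2 hF hC hall
  obtain ⟨z, hzH, hzp, hz1, hzc⟩ := exists_z f h2 hM.coatom hs hS hP (p := 3)
    (ξ := fun i => if i = 6 ∨ i = 7 then 1 else 0) (by
        simp only [Fin.sum_univ_eight]
        simp
        linear_combination 4 * h30) ⟨0, by
        simp only [Fin.sum_univ_eight]
        simp
        intro h
        apply one_ne_zero (α := F)
        linear_combination h30 + h⟩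
  have hadp : ad F z ^ 3 = 1 := by rw [← map_pow, hzp, map_one]
  have h4 : ad F z = (ad F z * ad F z) ^ 2 := by
    rw [← pow_two, ← pow_mul, show 2 * 2 = 3 + 1 by rfl, pow_succ, hadp, one_mul]
  have h5 : ad F z ∈ φ.range := by
    rw [h4]; exact pow_mem (hM.sq _ hzH) _
  obtain ⟨α, hα⟩ := h5
  have h1 : α = 1 := by
    apply alpha_nine
    intro g hg
    apply hM.inj
    rw [map_mul, map_mul, hα, ← hL (res9 g), ← map_mul, ← map_mul]
    congr 1
    refine hzc g fun i => ?_
    show (if (g : Perm (Fin 8)) i = 6 ∨ (g : Perm (Fin 8)) i = 7 then (1 : F) else 0) = if i = 6 ∨ i = 7 then 1 else 0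
    simp only [hg i]
  apply hz1
  rw [← hα, h1, map_one]

/-- **the contradiction for `n = 9`, `p = 3`** -/
theorem no_nine [Finite F] [IsAlgClosed K] [CharP F 3] {H : Subgroup ↥(chevE7.group F)} (hM : MaxAlt H 9 φ)
    (hL : Lift φ ψ) (hN : Nin ψ a b c) (hF : FixA7 ψ a b)
    (hP : PQ f (fun i : Fin 8 => a i.castSucc 8) (fun i : Fin 8 => b i.castSucc 8))
    (h0 : ∃ s t : F, (s ≠ 0 ∨ t ≠ 0) ∧ Zc a b s t) : False := by
  have h30 : (3 : F) = 0 := by exact_mod_cast CharP.cast_eq_zero F 3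
  have h2 : (2 : F) ≠ 0 := by
    intro h
    apply one_ne_zero (α := F)
    linear_combination h30 - h
  have hs := hN.sev h2 h30
  have hC : ∀ h : Gh F, ad F h ∈ H → ∃ σ : Perm (Fin 9), Ind ψ h σ := fun h hh =>
    conj_psi (by decide) hM hL hh
  rcases dicho f hN h2 hs hP h0 with hall | hpure
  · exact no_all f hM hL hN hF hP hall
  · refine Mu2.ts hM.coatom ?_ (stab_WZ hN h2 hF hC) ?_ fun x hx => (pure_iff_sing h2 x).1 (hpure x hx)
    · -- the order
      have h1 : Nat.card ↥H ≤ (9).factorial := by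
        have h3 := hM.card
        rwa [if_neg (by decide)] at h3
      have h3 : 2 < Nat.card F := by
        have := Fintype.ofFinite F
        rw [Nat.card_eq_fintype_card]
        have : Fact (Nat.Prime 3) := ⟨Nat.prime_three⟩
        obtain ⟨n, hn, hq⟩ := FiniteField.card F 3
        rw [hq]
        calc 2 < 3 ^ 1 := by norm_num
          _ ≤ 3 ^ (n : ℕ) := Nat.pow_le_pow_right (by norm_num) n.2
      calc Nat.card ↥H ≤ (9).factorial := h1
        _ < 3 ^ 27 := by decide
        _ ≤ Nat.card F ^ 27 := Nat.pow_le_pow_left h3 27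
    · -- the subspace is not zero
      obtain ⟨s, t, hst, hz⟩ := h0
      intro hbot
      have hm : s • a 0 1 + t • b 0 1 ∈ WZ a b := Submodule.subset_span ⟨s, t, 0, 1, hz, rfl⟩
      rw [hbot, Submodule.mem_bot] at hm
      have hg : gm F 0 1 0 1 = 2 := by unfold gm; norm_num
      have e1 : sf F (s • a 0 1 + t • b 0 1) (b 0 1) = s * (c * 2) := by
        rw [map_add, LinearMap.add_apply, map_smul, map_smul, LinearMap.smul_apply, LinearMap.smul_apply, hN.ab,
          hN.isoB, hg]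
        simp
      have e2 : sf F (a 0 1) (s • a 0 1 + t • b 0 1) = t * (c * 2) := by
        rw [map_add, map_smul, map_smul, hN.ab, hN.isoA, hg]
        simp
      rw [hm, map_zero, LinearMap.zero_apply] at e1
      rw [hm, map_zero] at e2
      have hc2 : c * 2 ≠ 0 := mul_ne_zero hN.ne h2
      rcases hst with h | h
      · exact mul_ne_zero h hc2 e1.symm
      · exact mul_ne_zero h hc2 e2.symm

end

end Cfsg.Agent.R2.T1.P3
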