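import Cfsg.Agent.R2.T1.P3.N4d
import Cfsg.Agent.R2.T1.Nodd.N9L
import Cfsg.Agent.R2.T1.Odd.Out9

/-!
# S5771, box P3, `p = 3`, `n = 9` (helper3): the adapter

* `exists_nin` : the two families of vectors for a maximal subgroup of type `A_9` in characteristic 3.
-/

set_option autoImplicit false

namespace Cfsg.Agent.R2.T1.P3

open Cfsg Cfsg.Lie Module Matrix
open Cfsg.Agent.R2.T1 Cfsg.Agent.R2.T1.Mu Cfsg.Agent.R2.PX
open Cfsg.Agent.H943.E7V.Block (D1 rho)
open Cfsg.Agent.H952.F4 (MaxAlt)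
open Cfsg.Agent.R2.T1.Nodd (N9 Y nn9)
open Equiv

universe u

section
variable {F : Type u} [Field F] {ψ : ↥(alternatingGroup (Fin 9)) →* Gh F}

theorem gm_ne {i j k l : Fin 9} : gm F i j k l = (if i = k then 1 else 0) + (if j = l then 1 else 0) -
    (if i = l then 1 else 0) - (if j = k then 1 else 0) := rfl

theorem nn_gram (h : N9 (MonoidHom.comp (V F) ψ : Representation F ↥(alternatingGroup (Fin 9)) (D1 → F)) (sf F))
    {y z : D1 → F} (hy : y ∈ Y (MonoidHom.comp (V F) ψ : Representation F ↥(alternatingGroup (Fin 9)) (D1 → F)))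
    (hz : z ∈ Y (MonoidHom.comp (V F) ψ : Representation F ↥(alternatingGroup (Fin 9)) (D1 → F))) (i j k l : Fin 9) :
    sf F (nn9 (MonoidHom.comp (V F) ψ : Representation F ↥(alternatingGroup (Fin 9)) (D1 → F)) i j y)
      (nn9 (MonoidHom.comp (V F) ψ : Representation F ↥(alternatingGroup (Fin 9)) (D1 → F)) k l z) =
      -(sf F y z) * gm F i j k l := by
  by_cases hij : i = j
  · subst hij
    rw [Nodd.nn9_self, map_zero, LinearMap.zero_apply]
    unfold gm
    ring
  by_cases hkl : k = l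
  · subst hkl
    rw [Nodd.nn9_self, map_zero]
    unfold gm
    ring
  by_cases hil : i = l
  · subst hil
    by_cases hjk : j = k
    · subst hjk
      rw [Nodd.anti h hz i j, map_neg, Nodd.B_nn h hy hz hij]
      unfold gm
      rw [if_neg hij, if_neg (Ne.symm hij), if_pos rfl, if_pos rfl]
      linear_combination (-(sf F y z)) * h.three
    · rw [Nodd.gram_cross' h hy hz hij (Ne.symm hkl) hjk]
      unfold gm
      rw [if_neg (Ne.symm hkl), if_neg (Ne.symm hij), if_pos rfl, if_neg hjk]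
      ring
  · by_cases hjk : j = k
    · subst hjk
      rw [Nodd.gram_cross h hy hz hij hil hkl]
      unfold gm
      rw [if_neg hij, if_neg hkl, if_neg hil, if_pos rfl]
      ring
    · rw [Nodd.gram h hy hz hij hkl hil hjk]
      unfold gm
      rw [if_neg hil, if_neg hjk]
      ring

theorem nin_of (h : N9 (MonoidHom.comp (V F) ψ : Representation F ↥(alternatingGroup (Fin 9)) (D1 → F)) (sf F)) :
    ∃ (a b : Fin 9 → Fin 9 → D1 → F) (c : F), Nin ψ a b c ∧ FixA7 ψ a b ∧ ∃ s t : F, (s ≠ 0 ∨ t ≠ 0) ∧ Zc a b s t := by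
  set ρ : Representation F ↥(alternatingGroup (Fin 9)) (D1 → F) := MonoidHom.comp (V F) ψ with hρ
  let e := Module.finBasisOfFinrankEq F ↥(Y ρ) h.dimY
  have hspan : ∀ u ∈ Y ρ, ∃ x y : F, u = x • (e 0 : D1 → F) + y • (e 1 : D1 → F) := by
    intro u hu
    refine ⟨e.repr ⟨u, hu⟩ 0, e.repr ⟨u, hu⟩ 1, ?_⟩
    have h1 := congrArg (Subtype.val) (e.sum_repr ⟨u, hu⟩)
    rw [Fin.sum_univ_two] at h1
    exact h1.symm
  obtain ⟨x, hx, hxe⟩ : ∃ x ∈ Y ρ, x = (e 0 : D1 → F) := ⟨_, (e 0).2, rfl⟩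
  obtain ⟨y, hy, hye⟩ : ∃ y ∈ Y ρ, y = (e 1 : D1 → F) := ⟨_, (e 1).2, rfl⟩
  have hspan' : ∀ u ∈ Y ρ, ∃ s t : F, u = s • x + t • y := by
    intro u hu
    rw [hxe, hye]
    exact hspan u hu
  have hx0 : x ≠ 0 := by
    rw [hxe]
    exact fun h => e.ne_zero 0 (Subtype.ext h)
  have hxy : sf F x y ≠ 0 := by
    intro h0
    apply hx0
    apply h.ndY x hx
    intro z hz
    obtain ⟨s, t, rfl⟩ := hspan' z hz
    rw [map_add, map_smul, map_smul, h.alt, h0, smul_zero, smul_zero, add_zero]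
  refine ⟨fun i j => nn9 ρ i j x, fun i j => nn9 ρ i j y, -(sf F x y), ?_, ?_, ?_⟩
  · exact { actA := fun g i j => Nodd.act hx g i j
            actB := fun g i j => Nodd.act hy g i j
            antiA := fun i j => Nodd.anti h hx i j
            antiB := fun i j => Nodd.anti h hy i j
            sumA := fun j => Nodd.sum_fst h hx j
            sumB := fun j => Nodd.sum_fst h hy j
            isoA := fun i j k l => by rw [nn_gram h hx hx, h.alt, neg_zero, zero_mul]
            isoB := fun i j k l => by rw [nn_gram h hy hy, h.alt, neg_zero, zero_mul]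
            ab := fun i j k l => nn_gram h hx hy i j k l
            ne := neg_ne_zero.2 hxy }
  · intro w hw
    obtain ⟨s, t, h1⟩ := hspan' w hw
    refine ⟨s, t, ?_⟩
    show w = s • nn9 ρ 7 8 x + t • nn9 ρ 7 8 y
    rw [Nodd.nn9_78, Nodd.nn9_78]
    exact h1
  · obtain ⟨u, hu, hu0, hz⟩ := Nodd.exists_u0 h
    obtain ⟨s, t, rfl⟩ := hspan' u hu
    refine ⟨s, t, ?_, ?_⟩
    · by_contra hcon
      push Not at hcon
      apply hu0
      rw [hcon.1, hcon.2, zero_smul, zero_smul, add_zero]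
    · intro i j k
      rw [← hz i j k, map_add, map_add, map_add, map_smul, map_smul, map_smul, map_smul, map_smul, map_smul]
      unfold sg
      module

/-- **the two families** -/
theorem exists_nin [Finite F] (h30 : (3 : F) = 0) (hψ : ∀ a, ad F (ψ a) = 1 → a = 1) :
    ∃ (a b : Fin 9 → Fin 9 → D1 → F) (c : F), Nin ψ a b c ∧ FixA7 ψ a b ∧ ∃ s t : F, (s ≠ 0 ∨ t ≠ 0) ∧ Zc a b s t := by
  have h2 : (2 : F) ≠ 0 := by
    intro h
    apply one_ne_zero (α := F)
    linear_combination h30 - h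
  have h5 : (5 : F) ≠ 0 := by
    intro h
    apply h2
    linear_combination h - h30
  have h7 : (7 : F) ≠ 0 := by
    intro h
    apply one_ne_zero (α := F)
    linear_combination h - 2 * h30
  have hC := Odd.cfgT9 h2 h5 hψ
  exact nin_of (Nodd.n9_of h2 hψ h30 (Odd.fx7_finrank hC) fun y hy hz => Odd.fx7_nd hC h7 hy hz)

end

end Cfsg.Agent.R2.T1.P3
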