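import Cfsg.Agent.R2.T1.P3.Q3
import Cfsg.Agent.R2.T1.Mu.Q1
import Cfsg.Agent.R2.T1.Odd.U

/-!
# S5771, box P3: pure combinations over the algebraic closure (helper27)

`pq` : the configuration `Sev` has the property `PQ` for the algebraic closure (from `Mu.Q1` and `Odd.types`).
-/

set_option autoImplicit false
set_option maxRecDepth 100000

namespace Cfsg.Agent.R2.T1.P3

open Cfsg Cfsg.Lie Module Matrix
open Cfsg.Agent.R2.T1 Cfsg.Agent.R2.T1.Mu Cfsg.Agent.R2.PX Cfsg.Agent.R2.T1.Odd
open Cfsg.Agent.H943.E7V.Block (D1 rho)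
open Cfsg.Agent.H952.F4 (MaxAlt ev)
open Cfsg.Agent.H65.E6Emb (ext mem_ext_of_mem ext_le mem_ext_fixed finrank_ext)
open Equiv

universe u

theorem P_mul_eq {l l' r : List (ℕ × ℕ)} (h : vl 8 l = true) (h' : vl 8 l' = true) (hr : vl 8 r = true)
    (hc : cd 8 (l ++ l') = cd 8 r) : P 8 l * P 8 l' = P 8 r := by
  rw [← P_append le_rfl h h', P_eq_iff le_rfl (vl_append h h') hr, hc]

section
variable {F : Type u} [Field F] {ψ : ↥(alternatingGroup (Fin 8)) →* Gh F} {a b : Fin 8 → D1 → F} {c : F}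

theorem sum_fix {g : List (ℕ × ℕ)} (hg : g ∈ gQ) {a : Fin 8 → D1 → F}
    (act : ∀ (g : ↥(alternatingGroup (Fin 8))) (i : Fin 8), V F (ψ g) (a i) = a ((g : Perm (Fin 8)) i)) :
    V F (ψ (P 8 g)) (a 0 + a 1 + a 2 + a 3) = a 0 + a 1 + a 2 + a 3 := by
  rw [map_add, map_add, map_add, act, act, act, act]
  simp only [gQ, List.mem_cons, List.not_mem_nil, or_false] at hg
  rcases hg with rfl | rfl | rfl | rfl
  · rw [coe_P (m := 8) le_rfl (by decide)]
    have e0 : pm 8 [(0, 1), (2, 3)] 0 = 1 := by decide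
    have e1 : pm 8 [(0, 1), (2, 3)] 1 = 0 := by decide
    have e2 : pm 8 [(0, 1), (2, 3)] 2 = 3 := by decide
    have e3 : pm 8 [(0, 1), (2, 3)] 3 = 2 := by decide
    rw [e0, e1, e2, e3]
    abel
  · rw [coe_P (m := 8) le_rfl (by decide)]
    have e0 : pm 8 [(0, 2), (1, 3)] 0 = 2 := by decide
    have e1 : pm 8 [(0, 2), (1, 3)] 1 = 3 := by decide
    have e2 : pm 8 [(0, 2), (1, 3)] 2 = 0 := by decide
    have e3 : pm 8 [(0, 2), (1, 3)] 3 = 1 := by decide
    rw [e0, e1, e2, e3]
    abel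
  · rw [coe_P (m := 8) le_rfl (by decide)]
    have e0 : pm 8 [(4, 5), (6, 7)] 0 = 0 := by decide
    have e1 : pm 8 [(4, 5), (6, 7)] 1 = 1 := by decide
    have e2 : pm 8 [(4, 5), (6, 7)] 2 = 2 := by decide
    have e3 : pm 8 [(4, 5), (6, 7)] 3 = 3 := by decide
    rw [e0, e1, e2, e3]
  · rw [coe_P (m := 8) le_rfl (by decide)]
    have e0 : pm 8 [(4, 6), (5, 7)] 0 = 0 := by decide
    have e1 : pm 8 [(4, 6), (5, 7)] 1 = 1 := by decide
    have e2 : pm 8 [(4, 6), (5, 7)] 2 = 2 := by decide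
    have e3 : pm 8 [(4, 6), (5, 7)] 3 = 3 := by decide
    rw [e0, e1, e2, e3]

theorem sf_four (hs : Sev ψ a b c) : sf F (a 0 + a 1 + a 2 + a 3) (b 0 + b 1 + b 2 + b 3) = 16 * c := by
  simp only [map_add, LinearMap.add_apply, hs.ab]
  norm_num [Fin.ext_iff]
  ring

/-- **`PQ`** -/
theorem pq [Finite F] {p : ℕ} [Fact p.Prime] [CharP F p] (h2 : (2 : F) ≠ 0) (hψ : ∀ a, ad F (ψ a) = 1 → a = 1)
    (hs : Sev ψ a b c) : PQ (algebraMap F (AlgebraicClosure F)) a b := by
  set K := AlgebraicClosure F with hK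
  set f := algebraMap F K with hf
  have hCK : CharP K p := charP_of_injective_algebraMap (algebraMap F K).injective p
  have h2K : (2 : K) ≠ 0 := by
    intro h
    apply h2
    apply f.injective
    rw [map_ofNat, h, map_zero]
  obtain ⟨e32, e24, -, -, hdim, -, -⟩ := types (n := 8) le_rfl h2 hψ
  set ρ : Representation F ↥(alternatingGroup (Fin 8)) (D1 → F) := MonoidHom.comp (V F) ψ with hρ
  set W := inv ρ (Tg 8 gQ) with hW
  have hdimK : finrank K ↥(ext f W) = 2 := by rw [finrank_ext, hdim]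
  have evc : ∀ l : List (ℕ × ℕ), ev (V K (emb f (ψ (P 8 l)))) 1 = ev (V F (ψ (P 8 l))) 1 := fun l => ev_V_one f _
  have hcj : ∀ {x c r : List (ℕ × ℕ)}, vl 8 x = true → vl 8 c = true → vl 8 r = true → cd 8 (x ++ c) = cd 8 (c ++ r) →
      ev (V K (emb f (ψ (P 8 x)))) 1 = ev (V F (ψ (P 8 r))) 1 := by
    intro x c r hx hc hr h
    rw [evc]
    exact ev_P_conj le_rfl ρ hx hc hr h 1
  have hmul : ∀ {l l' r : List (ℕ × ℕ)}, vl 8 l = true → vl 8 l' = true → vl 8 r = true → cd 8 (l ++ l') = cd 8 r →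
      emb f (ψ (P 8 l)) * emb f (ψ (P 8 l')) = emb f (ψ (P 8 r)) := by
    intro l l' r h h' hr hc
    rw [← map_mul, ← map_mul, P_mul_eq h h' hr hc]
  have hone : emb f (ψ (P 8 [])) = 1 := by rw [P_nil, map_one, map_one]
  have hcomm : ∀ {l l' : List (ℕ × ℕ)}, vl 8 l = true → vl 8 l' = true → cd 8 (l ++ l') = cd 8 (l' ++ l) →
      emb f (ψ (P 8 l)) * emb f (ψ (P 8 l')) = emb f (ψ (P 8 l')) * emb f (ψ (P 8 l)) := by
    intro l l' h h' hc
    rw [hmul h h' (vl_append h' h) hc, hmul h' h (vl_append h' h) rfl]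
  have hUmem : ∀ v : D1 → K, v ∈ ext f W ↔ V K (emb f (ψ (P 8 [(0, 1), (2, 3)]))) v = v ∧
      V K (emb f (ψ (P 8 [(0, 2), (1, 3)]))) v = v ∧ V K (emb f (ψ (P 8 [(4, 5), (6, 7)]))) v = v ∧
      V K (emb f (ψ (P 8 [(4, 6), (5, 7)]))) v = v := by
    intro v
    constructor
    · intro hv
      have key : ∀ g ∈ gQ, V K (emb f (ψ (P 8 g))) v = v := by
        intro g hg
        have h1 : ext f W ≤ Module.End.eigenspace (V K (emb f (ψ (P 8 g)))) 1 := by
          refine ext_le fun x hx => ?_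
          rw [Module.End.mem_eigenspace_iff, one_smul, V_emb]
          have h3 := (mem_U (ρ := ρ)).1 hx g hg
          have h4 : V F (ψ (P 8 g)) x = x := h3
          rw [h4]
        have h3 := h1 hv
        rwa [Module.End.mem_eigenspace_iff, one_smul] at h3
      exact ⟨key _ (by decide), key _ (by decide), key _ (by decide), key _ (by decide)⟩
    · rintro ⟨h1, h3, h4, h5⟩
      refine mem_ext_fixed (fun g : {g // g ∈ gQ} => rho F (ψ (P 8 g.1))) W (fun x hx => ?_) (y := v) fun g => ?_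
      · exact (mem_U (ρ := ρ)).2 fun g hg => hx ⟨g, hg⟩
      · obtain ⟨g, hg⟩ := g
        have h6 : V K (emb f (ψ (P 8 g))) v = v := by
          simp only [gQ, List.mem_cons, List.not_mem_nil, or_false] at hg
          rcases hg with rfl | rfl | rfl | rfl
          · exact h1
          · exact h3
          · exact h4
          · exact h5
        rw [V_apply, rho_emb] at h6
        exact h6
  obtain ⟨u1, u2, hu1, hu2, hli, hspan⟩ := Q1 (Cfsg.Agent.H944.RootVals.hAlg_closure p F) h2K
    (t1 := emb f (ψ (P 8 [(0, 1), (2, 3)]))) (t2 := emb f (ψ (P 8 [(0, 2), (1, 3)])))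
    (s1 := emb f (ψ (P 8 [(4, 5), (6, 7)]))) (s2 := emb f (ψ (P 8 [(4, 6), (5, 7)])))
    (by rw [hmul (r := []) (by decide) (by decide) (by decide) (by decide), hone])
    (by rw [hmul (r := []) (by decide) (by decide) (by decide) (by decide), hone])
    (by rw [hmul (r := []) (by decide) (by decide) (by decide) (by decide), hone])
    (by rw [hmul (r := []) (by decide) (by decide) (by decide) (by decide), hone])
    (hcomm (by decide) (by decide) (by decide)) (hcomm (by decide) (by decide) (by decide))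
    (hcomm (by decide) (by decide) (by decide)) (hcomm (by decide) (by decide) (by decide))
    (hcomm (by decide) (by decide) (by decide)) (hcomm (by decide) (by decide) (by decide))
    (by rw [evc]; exact e32)
    (by rw [hcj (c := [(0, 1), (0, 2)]) (r := lt) (by decide) (by decide) (by decide) (by decide), e32])
    (by
      rw [hmul (r := [(0, 1), (2, 3), (0, 2), (1, 3)]) (by decide) (by decide) (by decide) (by decide),
        hcj (c := [(0, 1), (0, 3)]) (r := lt) (by decide) (by decide) (by decide) (by decide), e32])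
    (by rw [hcj (c := [(0, 4), (1, 5), (2, 6), (3, 7)]) (r := lt) (by decide) (by decide) (by decide) (by decide), e32])
    (by rw [hcj (c := [(0, 4), (1, 6), (2, 5), (3, 7)]) (r := lt) (by decide) (by decide) (by decide) (by decide), e32])
    (by
      rw [hmul (r := [(0, 1), (2, 3), (4, 5), (6, 7)]) (by decide) (by decide) (by decide) (by decide), evc]
      exact e24)
    (by
      rw [hmul (r := [(0, 1), (2, 3), (4, 6), (5, 7)]) (by decide) (by decide) (by decide) (by decide),
        hcj (c := [(0, 1), (4, 7)]) (r := ls) (by decide) (by decide) (by decide) (by decide), e24])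
    (by
      rw [hmul (r := [(0, 2), (1, 3), (4, 5), (6, 7)]) (by decide) (by decide) (by decide) (by decide),
        hcj (c := [(0, 1), (0, 2)]) (r := ls) (by decide) (by decide) (by decide) (by decide), e24])
    (by
      rw [hmul (r := [(0, 2), (1, 3), (4, 6), (5, 7)]) (by decide) (by decide) (by decide) (by decide),
        hcj (c := [(0, 3), (4, 7)]) (r := ls) (by decide) (by decide) (by decide) (by decide), e24])
    hUmem hdimK
  have hwa : (fun x => f ((a 0 + a 1 + a 2 + a 3) x) : D1 → K) ∈ ext f W :=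
    mem_ext_of_mem ((mem_U (ρ := ρ)).2 fun g hg => sum_fix hg hs.actA)
  have hwb : (fun x => f ((b 0 + b 1 + b 2 + b 3) x) : D1 → K) ∈ ext f W :=
    mem_ext_of_mem ((mem_U (ρ := ρ)).2 fun g hg => sum_fix hg hs.actB)
  rw [hspan, Submodule.mem_span_pair] at hwa hwb
  obtain ⟨α, β, h1⟩ := hwa
  obtain ⟨γ, δ, h3⟩ := hwb
  have hsf : sf K (fun x => f ((a 0 + a 1 + a 2 + a 3) x)) (fun x => f ((b 0 + b 1 + b 2 + b 3) x)) = f (16 * c) := by
    rw [sf_emb, sf_four hs]
  have hne : f (16 * c) ≠ 0 := by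
    rw [Ne, map_eq_zero]
    refine mul_ne_zero ?_ hs.ne
    have : (16 : F) = 2 ^ 4 := by norm_num
    rw [this]
    exact pow_ne_zero _ h2
  have hΔ : α * δ - β * γ ≠ 0 := by
    intro h0
    apply hne
    rw [← hsf, ← h1, ← h3]
    simp only [map_add, map_smul, LinearMap.add_apply, LinearMap.smul_apply, smul_eq_mul, sf_self]
    rw [sf_swap u2 u1]
    linear_combination (sf K u1 u2) * h0
  refine ⟨δ / (α * δ - β * γ), -β / (α * δ - β * γ), -γ / (α * δ - β * γ), α / (α * δ - β * γ), ?_, ?_, ?_⟩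
  · have e : δ / (α * δ - β * γ) * (α / (α * δ - β * γ)) - -β / (α * δ - β * γ) * (-γ / (α * δ - β * γ)) =
        1 / (α * δ - β * γ) := by
      rw [div_mul_div_comm, div_mul_div_comm, ← sub_div, div_eq_div_iff (mul_ne_zero hΔ hΔ) hΔ]
      ring
    rw [e]
    exact one_div_ne_zero hΔ
  · rw [← h1, ← h3]
    have e : (δ / (α * δ - β * γ)) • (α • u1 + β • u2) + (-β / (α * δ - β * γ)) • (γ • u1 + δ • u2) = u1 := by
      rw [smul_add, smul_add, smul_smul, smul_smul, smul_smul, smul_smul]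
      have e1 : δ / (α * δ - β * γ) * α + -β / (α * δ - β * γ) * γ = 1 := by
        rw [div_mul_eq_mul_div, div_mul_eq_mul_div, ← add_div, div_eq_one_iff_eq hΔ]
        ring
      have e2 : δ / (α * δ - β * γ) * β + -β / (α * δ - β * γ) * δ = 0 := by
        rw [div_mul_eq_mul_div, div_mul_eq_mul_div, ← add_div, div_eq_zero_iff]
        left
        ring
      calc _ = (δ / (α * δ - β * γ) * α + -β / (α * δ - β * γ) * γ) • u1 +
            (δ / (α * δ - β * γ) * β + -β / (α * δ - β * γ) * δ) • u2 := by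
            rw [add_smul, add_smul]
            abel
        _ = u1 := by rw [e1, e2, one_smul, zero_smul, add_zero]
    rw [e]
    exact hu1
  · rw [← h1, ← h3]
    have e : (-γ / (α * δ - β * γ)) • (α • u1 + β • u2) + (α / (α * δ - β * γ)) • (γ • u1 + δ • u2) = u2 := by
      rw [smul_add, smul_add, smul_smul, smul_smul, smul_smul, smul_smul]
      have e1 : -γ / (α * δ - β * γ) * α + α / (α * δ - β * γ) * γ = 0 := by
        rw [div_mul_eq_mul_div, div_mul_eq_mul_div, ← add_div, div_eq_zero_iff]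
        left
        ring
      have e2 : -γ / (α * δ - β * γ) * β + α / (α * δ - β * γ) * δ = 1 := by
        rw [div_mul_eq_mul_div, div_mul_eq_mul_div, ← add_div, div_eq_one_iff_eq hΔ]
        ring
      calc _ = (-γ / (α * δ - β * γ) * α + α / (α * δ - β * γ) * γ) • u1 +
            (-γ / (α * δ - β * γ) * β + α / (α * δ - β * γ) * δ) • u2 := by
            rw [add_smul, add_smul]
            abel
        _ = u2 := by rw [e1, e2, one_smul, zero_smul, zero_add]
    rw [e]
    exact hu2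

end

end Cfsg.Agent.R2.T1.P3
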