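import Cfsg.Agent.R2.T1.P3.N9A
import Cfsg.Agent.R2.T1.P3.PQ

/-!
# S5771, box P3 (helper3): the contradiction for `n = 9`, characteristic 3
-/

set_option autoImplicit false

namespace Cfsg.Agent.R2.T1.P3

open Cfsg Cfsg.Lie Module Matrix
open Cfsg.Agent.R2.T1 Cfsg.Agent.R2.T1.Mu Cfsg.Agent.R2.PX
open Cfsg.Agent.H943.E7V.Block (D1 rho)
open Cfsg.Agent.H952.F4 (MaxAlt)
open Equiv

universe u

theorem res9_inj {g : ↥(alternatingGroup (Fin 8))} (h : res9 g = 1) : g = 1 := by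
  apply Subtype.ext
  apply Equiv.ext
  intro i
  have h1 := res9_cast g i
  rw [h] at h1
  exact (Fin.castSucc_injective _ h1).symm

/-- **`n = 9`, characteristic 3** -/
theorem odd9_three {F : Type u} [Field F] [Finite F] (h30 : (3 : F) = 0) {H : Subgroup ↥(chevE7.group F)}
    {φ : ↥(alternatingGroup (Fin 9)) →* ↥(chevE7.group F)} {ψ : ↥(alternatingGroup (Fin 9)) →* Gh F}
    (hM : MaxAlt H 9 φ) (hL : Lift φ ψ) : False := by
  have hF : Fact (Nat.Prime 3) := ⟨Nat.prime_three⟩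
  have hc : CharP F 3 := (CharP.charP_iff_prime_eq_zero Nat.prime_three).2 (by exact_mod_cast h30)
  have h2 : (2 : F) ≠ 0 := by
    intro h
    apply one_ne_zero (α := F)
    linear_combination h30 - h
  have hψ : ∀ a, ad F (ψ a) = 1 → a = 1 := Odd.lift_inj hM hL
  obtain ⟨a, b, c, hN, hF7, h0⟩ := exists_nin h30 hψ
  have hP : PQ (algebraMap F (AlgebraicClosure F)) (fun i : Fin 8 => a i.castSucc 8) (fun i : Fin 8 => b i.castSucc 8) :=
    pq (p := 3) h2 (fun g hg => res9_inj (hψ _ hg)) (hN.sev h2 h30)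
  exact no_nine (algebraMap F (AlgebraicClosure F)) hM hL hN hF7 hP h0

end Cfsg.Agent.R2.T1.P3
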